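import Cfsg.Agent.Lib.CharRealSolvable.Over
import Cfsg.Agent.Lib.Coprime.Action
import Mathlib.GroupTheory.Sylow
import Mathlib.Algebra.BigOperators.Ring.Nat
import Mathlib.GroupTheory.Abelianization.Defs

/-!
# Real constituents over a linear character of a normal subgroup

If a linear character of a subgroup `D`, lying over `l` on the normal subgroup `M`, is carried to
its conjugate by an element normalising `D`, and `D` has odd index in the inertia group of `l`,
then some real irreducible character lies over `l`.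
-/

set_option autoImplicit false
set_option linter.unusedSectionVars false
set_option linter.style.haveILetI false

open scoped ComplexConjugate

namespace Cfsg.Agent.Lib.CharRealPrime

open Cfsg Cfsg.Agent.Lib Cfsg.Agent.Lib.Char
open Cfsg.Agent.Lib.CharRealSolvable (homFun isIrr_homFun indFun_conj)

universe u

variable {G : Type u} [Group G] [Finite G]

/-- A sum invariant under an involution with even fixed terms is even. -/
theorem even_sum_pairs {α : Type*} [Fintype α] (f : α → ℕ) (i : α → α)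
    (hi : ∀ a, i (i a) = a) (hf : ∀ a, f (i a) = f a) (hfix : ∀ a, i a = a → Even (f a)) :
    Even (∑ a, f a) := by
  classical
  rw [← ZMod.natCast_eq_zero_iff_even, Nat.cast_sum]
  refine Finset.sum_involution (fun a _ => i a) (fun a _ => ?_) (fun a _ ha he => ha ?_)
    (fun a _ => Finset.mem_univ _) fun a _ => hi a
  · rw [hf]; exact CharTwo.add_self_eq_zero _
  · exact ZMod.natCast_eq_zero_iff_even.2 (hfix a he)

variable {M : Subgroup G} [M.Normal]

theorem conjChar_homFun_eq_iff (l : M →* ℂˣ) (g : G) :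
    conjChar M g (homFun l) = homFun l ↔
      ∀ m : M, l ⟨g * m * g⁻¹, (inferInstance : M.Normal).conj_mem m m.2 g⟩ = l m := by
  constructor
  · intro h m
    exact Units.ext (congrFun h m)
  · intro h
    funext m
    exact congrArg Units.val (h m)

/-- **Real constituent lemma.** -/
theorem exists_real_over_of_extension [Fintype G] [Fintype M] (l : M →* ℂˣ) (D : Subgroup G)
    (hMD : M ≤ D) (η : D →* ℂˣ) (hη : ∀ m : M, η ⟨(m : G), hMD m.2⟩ = l m) (s : G)
    (hs : ∀ d ∈ D, s * d * s⁻¹ ∈ D)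
    (hsη : ∀ d : D, η ⟨s * (d : G) * s⁻¹, hs _ d.2⟩ = (η d)⁻¹)
    (hodd : Odd (D.relIndex (inertia M (homFun l)))) :
    ∃ χ : IrrCharacter G, (∀ g, ((χ : G → ℂ) g).im = 0) ∧
      classInner (fun m : M => (χ : G → ℂ) m) (homFun l) ≠ 0 := by
  classical
  haveI := Fintype.ofFinite D
  set θ : D → ℂ := fun d => (η d : ℂ) with hθdef
  have hlirr : IsIrrCharacter M (homFun l) := isIrr_homFun l
  have hθirr : IsIrrCharacter D θ := isIrrCharacter_linear η
  set Ψ := indFun D θ with hΨ
  -- the induced function is real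
  have hconjv : ∀ d : D, conj (θ d) = θ ⟨s * (d : G) * s⁻¹, hs _ d.2⟩ := by
    intro d
    have h := linear_conj_mul η d
    show conj (η d : ℂ) = (η ⟨s * (d : G) * s⁻¹, hs _ d.2⟩ : ℂ)
    rw [hsη d, Units.val_inv_eq_inv_val]
    exact eq_inv_of_mul_eq_one_right h
  have hsiff : ∀ y : G, s * y * s⁻¹ ∈ D → y ∈ D := by
    intro y hy
    let f : D → D := fun d => ⟨s * (d : G) * s⁻¹, hs _ d.2⟩
    have hinj : Function.Injective f := fun a b h => Subtype.ext
      (mul_left_cancel (mul_right_cancel (congrArg Subtype.val h)))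
    obtain ⟨d, hd⟩ := (Finite.injective_iff_surjective.1 hinj) ⟨_, hy⟩
    have : (d : G) = y := mul_left_cancel (mul_right_cancel (congrArg Subtype.val hd))
    exact this ▸ d.2
  have hΨreal : ∀ g, conj (Ψ g) = Ψ g := by
    intro g
    rw [hΨ, indFun_conj]
    simp only [indFun]
    congr 1
    refine Fintype.sum_equiv (Equiv.mulRight s⁻¹) _ _ fun x => ?_
    have e : (x * s⁻¹)⁻¹ * g * (x * s⁻¹) = s * (x⁻¹ * g * x) * s⁻¹ := by group
    simp only [Equiv.coe_mulRight, e]
    by_cases hx : x⁻¹ * g * x ∈ D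
    · rw [extendByZero_mem D _ hx, extendByZero_mem D _ (hs _ hx), hconjv ⟨_, hx⟩]
    · rw [extendByZero_not_mem D _ hx, extendByZero_not_mem D _ fun h => hx (hsiff _ h)]
  -- its multiplicity over `l` is odd
  set T := inertia M (homFun l) with hT
  have hDT : D ≤ T := by
    intro d hd
    rw [hT, mem_inertia, conjChar_homFun_eq_iff]
    intro m
    rw [← hη, ← hη]
    have e : (⟨d * (m : G) * d⁻¹,
        hMD ((inferInstance : M.Normal).conj_mem m m.2 d)⟩ : D) =
        ⟨d, hd⟩ * ⟨(m : G), hMD m.2⟩ * ⟨d, hd⟩⁻¹ := rfl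
    rw [e, map_mul, map_mul, map_inv, mul_comm, inv_mul_cancel_left]
  have hres : (fun m : M => Ψ m) =
      (Nat.card D : ℂ)⁻¹ • ∑ x : G, conjChar M x (homFun l) := by
    funext m
    simp only [Ψ, indFun, Pi.smul_apply, Finset.sum_apply, smul_eq_mul]
    congr 1
    refine Fintype.sum_equiv (Equiv.inv G) _ _ fun x => ?_
    have hmem : x⁻¹ * (m : G) * x ∈ M := by
      simpa using (inferInstance : M.Normal).conj_mem (m : G) m.2 x⁻¹
    rw [extendByZero_mem D θ (hMD hmem)]
    simp only [Equiv.inv_apply, conjChar_apply, inv_inv]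
    show (η ⟨x⁻¹ * (m : G) * x, hMD hmem⟩ : ℂ) = _
    rw [hη ⟨_, hmem⟩]
    rfl
  have hmult : classInner (fun m : M => Ψ m) (homFun l) = (D.relIndex T : ℂ) := by
    rw [hres, classInner_smul_left, classInner_sum_left,
      Finset.sum_congr rfl fun x _ => classInner_irr (isIrrCharacter_conjChar M x hlirr) hlirr,
      Finset.sum_boole]
    have hc : (Finset.univ.filter fun x : G => conjChar M x (homFun l) = homFun l).card =
        Nat.card T := by
      rw [Nat.card_eq_fintype_card, Fintype.card_subtype]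
      simp [hT, mem_inertia]
    rw [hc, ← Subgroup.relIndex_bot_left, ← Subgroup.relIndex_bot_left (H := T),
      ← Subgroup.relIndex_mul_relIndex _ _ _ bot_le hDT, Nat.cast_mul, inv_mul_cancel_left₀]
    rw [Subgroup.relIndex_bot_left]
    exact card_ne_zero_complex D
  -- the restriction of conjugates
  have hbar : (fun m : M => conj (homFun l m)) = conjChar M s (homFun l) := by
    funext m
    have h1 := hconjv ⟨(m : G), hMD m.2⟩
    simp only [hθdef] at h1
    rw [hη m] at h1
    show conj (l m : ℂ) = _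
    rw [h1, conjChar_apply]
    exact congrArg Units.val (hη ⟨_, (inferInstance : M.Normal).conj_mem (m : G) m.2 s⟩)
  choose n hn using fun χ : IrrCharacter G =>
    classInner_natCast (isCharacter_indFun D (isCharacter_of_isIrr hθirr)) (isCharacter_of_isIrr χ.2)
  choose a ha using fun χ : IrrCharacter G =>
    classInner_natCast (isCharacter_restrict (isCharacter_of_isIrr χ.2) M) (isCharacter_of_isIrr hlirr)
  by_contra! hno
  have hsum : (∑ χ : IrrCharacter G, n χ * a χ) = D.relIndex T := by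
    have hexp : (fun m : M => Ψ m) =
        ∑ χ : IrrCharacter G, (n χ : ℂ) • (fun m : M => (χ : G → ℂ) m) := by
      funext m
      conv_lhs => rw [eq_sum_classInner_smul (φ := Ψ) (isClassFunction_indFun D θ)]
      simp [Ψ, hn]
    rw [hexp, classInner_sum_left] at hmult
    simp only [classInner_smul_left, ha] at hmult
    exact_mod_cast hmult
  rw [← hsum] at hodd
  refine Nat.not_even_iff_odd.2 hodd (even_sum_pairs _
    (fun χ => ⟨fun g => conj ((χ : G → ℂ) g), isIrrCharacter_conj χ.2⟩)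
    (fun χ => Subtype.ext (funext fun g => Complex.conj_conj _)) (fun χ => ?_) (fun χ hχ => ?_))
  · congr 1
    · have h1 := hn ⟨fun g => conj ((χ : G → ℂ) g), isIrrCharacter_conj χ.2⟩
      have h2 : classInner Ψ (fun g => conj ((χ : G → ℂ) g)) = conj (classInner Ψ (χ : G → ℂ)) := by
        simp [classInner, map_sum, hΨreal]
      simp only [← hΨ] at h1 hn
      rw [h2, hn, map_natCast] at h1
      exact_mod_cast h1.symm
    · have h1 := ha ⟨fun g => conj ((χ : G → ℂ) g), isIrrCharacter_conj χ.2⟩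
      have h2 : classInner (fun m : M => conj ((χ : G → ℂ) m)) (homFun l) =
          conj (classInner (fun m : M => (χ : G → ℂ) m) (fun m => conj (homFun l m))) := by
        simp [classInner, map_sum]
      have h3 : classInner (fun m : M => (χ : G → ℂ) m) (conjChar M s (homFun l)) =
          classInner (fun m : M => (χ : G → ℂ) m) (homFun l) := by
        conv_lhs => rw [← conjChar_restrict M (isClassFunction_of_isIrr χ.2) s]
        rw [classInner_conjChar]
      simp only at h1
      rw [h2, hbar, h3, ha, map_natCast] at h1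
      exact_mod_cast h1.symm
  · have hr : ∀ g, ((χ : G → ℂ) g).im = 0 := fun g =>
      Complex.conj_eq_iff_im.1 (congrFun (congrArg Subtype.val hχ) g)
    have h0 := hno χ hr
    rw [ha] at h0
    rw [Nat.cast_eq_zero.1 h0, mul_zero]
    exact ⟨0, rfl⟩

/-- A homomorphism fixed by a complement extends to the product, trivially on the complement. -/
theorem exists_extension_of_complement (l : M →* ℂˣ) (C : Subgroup G) (hdis : M ⊓ C = ⊥)
    (hfix : ∀ c ∈ C, ∀ m : M,
      l ⟨c * m * c⁻¹, (inferInstance : M.Normal).conj_mem m m.2 c⟩ = l m) :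
    ∃ η : (M ⊔ C : Subgroup G) →* ℂˣ, ∀ (m : M) (c : G) (hc : c ∈ C),
      η ⟨(m : G) * c, Subgroup.mul_mem_sup m.2 hc⟩ = l m := by
  classical
  have huniq : ∀ {m m' c c' : G}, m ∈ M → m' ∈ M → c ∈ C → c' ∈ C → m * c = m' * c' → m = m' := by
    intro m m' c c' hm hm' hc hc' h
    have h1 : m'⁻¹ * m = c' * c⁻¹ := by
      rw [eq_mul_inv_iff_mul_eq, mul_assoc, h, inv_mul_cancel_left]
    have h2 : m'⁻¹ * m ∈ M ⊓ C := ⟨M.mul_mem (M.inv_mem hm') hm, h1 ▸ C.mul_mem hc' (C.inv_mem hc)⟩
    rw [hdis, Subgroup.mem_bot, inv_mul_eq_one] at h2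
    exact h2.symm
  have hdec : ∀ d : (M ⊔ C : Subgroup G), ∃ m : M, ∃ c ∈ C, (m : G) * c = d := by
    intro d
    obtain ⟨m, hm, c, hc, h⟩ := Subgroup.mem_sup_of_normal_left.1 d.2
    exact ⟨⟨m, hm⟩, c, hc, h⟩
  choose mp cp hcp hmc using hdec
  have hval : ∀ (d : (M ⊔ C : Subgroup G)) (m : M) (c : G), c ∈ C → (m : G) * c = d → mp d = m :=
    fun d m c hc h => Subtype.ext (huniq (mp d).2 m.2 (hcp d) hc ((hmc d).trans h.symm))
  refine ⟨MonoidHom.mk' (fun d => l (mp d)) fun a b => ?_, fun m c hc => ?_⟩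
  · show l (mp (a * b)) = l (mp a) * l (mp b)
    have hm' : cp a * (mp b : G) * (cp a)⁻¹ ∈ M :=
      (inferInstance : M.Normal).conj_mem _ (mp b).2 _
    rw [hval (a * b) (mp a * ⟨_, hm'⟩) (cp a * cp b) (C.mul_mem (hcp a) (hcp b)) ?_, map_mul,
      hfix _ (hcp a)]
    rw [Subgroup.coe_mul, Subgroup.coe_mul, ← hmc a, ← hmc b]
    group
  · show l (mp _) = l m
    rw [hval _ m c hc rfl]

/-- A real character over `l` from a complement of odd index in the inertia group and an element
inverting `l`. -/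
theorem exists_real_over_of_complement [Fintype G] [Fintype M] (l : M →* ℂˣ) (C : Subgroup G)
    (hdis : M ⊓ C = ⊥) (hC : C ≤ inertia M (homFun l)) (s : G)
    (hsC : ∀ c ∈ C, s * c * s⁻¹ ∈ C)
    (hsl : ∀ m : M, l ⟨s * m * s⁻¹, (inferInstance : M.Normal).conj_mem m m.2 s⟩ = (l m)⁻¹)
    (hodd : Odd ((M ⊔ C).relIndex (inertia M (homFun l)))) :
    ∃ χ : IrrCharacter G, (∀ g, ((χ : G → ℂ) g).im = 0) ∧
      classInner (fun m : M => (χ : G → ℂ) m) (homFun l) ≠ 0 := by
  obtain ⟨η, hη⟩ := exists_extension_of_complement l C hdis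
    (fun c hc m => (conjChar_homFun_eq_iff l c).1 ((mem_inertia M).1 (hC hc)) m)
  have hdec : ∀ d : (M ⊔ C : Subgroup G), ∃ (m : M) (c : G) (hc : c ∈ C),
      (d : G) = m * c ∧ η d = l m := by
    intro d
    obtain ⟨m, hm, c, hc, h⟩ := Subgroup.mem_sup_of_normal_left.1 d.2
    refine ⟨⟨m, hm⟩, c, hc, h.symm, ?_⟩
    rw [← hη ⟨m, hm⟩ c hc]
    exact congrArg η (Subtype.ext h.symm)
  have hs : ∀ d ∈ M ⊔ C, s * d * s⁻¹ ∈ M ⊔ C := by
    intro d hd
    obtain ⟨m, hm, c, hc, rfl⟩ := Subgroup.mem_sup_of_normal_left.1 hd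
    rw [show s * (m * c) * s⁻¹ = (s * m * s⁻¹) * (s * c * s⁻¹) by group]
    exact Subgroup.mul_mem_sup ((inferInstance : M.Normal).conj_mem m hm s) (hsC c hc)
  refine exists_real_over_of_extension l (M ⊔ C) le_sup_left η (fun m => ?_) s hs (fun d => ?_) hodd
  · rw [← hη m 1 C.one_mem]
    exact congrArg η (Subtype.ext (mul_one _).symm)
  · obtain ⟨m, c, hc, hd, he⟩ := hdec d
    rw [he, ← hsl m, ← hη _ _ (hsC c hc)]
    refine congrArg η (Subtype.ext ?_)
    show s * (d : G) * s⁻¹ = s * (m : G) * s⁻¹ * (s * c * s⁻¹)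
    rw [hd]
    group

/-- The index of `S ⊓ T` in a normal subgroup `T` divides that of `S`. -/
theorem relIndex_dvd_of_normalized {S T H : Subgroup G} (hSH : S ≤ H) (hTH : T ≤ H)
    (hn : H ≤ Subgroup.normalizer (T : Set G)) : S.relIndex T ∣ S.relIndex H := by
  have h1 := Coprime.card_sup_mul_card_inf_of_le_normalizer (hSH.trans hn)
  have h2 : Nat.card ↥(S ⊓ T) * S.relIndex T = Nat.card T := by
    rw [← Subgroup.inf_relIndex_right, ← Subgroup.relIndex_bot_left, ← Subgroup.relIndex_bot_left,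
      Subgroup.relIndex_mul_relIndex _ _ _ bot_le inf_le_right]
  have h3 : Nat.card S * S.relIndex H = Nat.card H := by
    rw [← Subgroup.relIndex_bot_left, ← Subgroup.relIndex_bot_left,
      Subgroup.relIndex_mul_relIndex _ _ _ bot_le hSH]
  have h4 : Nat.card ↥(S ⊔ T) = Nat.card S * S.relIndex T := by
    refine Nat.eq_of_mul_eq_mul_right (m := Nat.card ↥(S ⊓ T)) Nat.card_pos ?_
    rw [h1, mul_assoc, mul_comm (S.relIndex T), h2]
  refine Nat.dvd_of_mul_dvd_mul_left (Nat.card_pos (α := S)) ?_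
  rw [h3, ← h4]
  exact Subgroup.card_dvd_of_le (sup_le hSH hTH)

/-- A real character over a linear character of a normal subgroup of odd order inverted by a
`2`-element. -/
theorem exists_real_over_of_inverted [Fintype G] [Fintype M] (hM : Odd (Nat.card M)) (l : M →* ℂˣ)
    (g : G) (hg : ∃ k, orderOf g = 2 ^ k)
    (hgl : ∀ m : M, l ⟨g * m * g⁻¹, (inferInstance : M.Normal).conj_mem m m.2 g⟩ = (l m)⁻¹) :
    ∃ χ : IrrCharacter G, (∀ g, ((χ : G → ℂ) g).im = 0) ∧
      classInner (fun m : M => (χ : G → ℂ) m) (homFun l) ≠ 0 := by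
  haveI : Fact (Nat.Prime 2) := ⟨Nat.prime_two⟩
  set T := inertia M (homFun l) with hT
  let cj : G → (M →* ℂˣ) := fun x => l.comp (MulAut.conjNormal x).toMonoidHom
  have hcj : ∀ (x : G) (m : M), cj x m =
      l ⟨x * m * x⁻¹, (inferInstance : M.Normal).conj_mem m m.2 x⟩ := fun x m =>
    congrArg l (Subtype.ext (MulAut.conjNormal_apply x m))
  have hcjmul : ∀ x y : G, ∀ m, cj (x * y) m = cj x (MulAut.conjNormal y m) := by
    intro x y m
    show l (MulAut.conjNormal (x * y) m) = l (MulAut.conjNormal x (MulAut.conjNormal y m))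
    rw [map_mul]; rfl
  have hmemT : ∀ x, x ∈ T ↔ cj x = l := fun x => by
    rw [hT, mem_inertia, conjChar_homFun_eq_iff, MonoidHom.ext_iff]
    simp only [hcj]
  have key : ∀ (x y : G) (a b : M →* ℂˣ), cj x = a → cj y = b →
      ∀ m, cj (x * y) m = a (MulAut.conjNormal y m) := fun x y a b hx _ m => by rw [hcjmul, hx]
  let Tp : Subgroup G :=
    { carrier := {x | cj x = l ∨ cj x = l⁻¹}
      one_mem' := Or.inl (by ext m; simp [cj])
      mul_mem' := by
        intro x y hx hy
        have hy' : ∀ m, l (MulAut.conjNormal y m) = cj y m := fun m => rfl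
        rcases hx with hx | hx <;> rcases hy with hy | hy
        · refine Or.inl (MonoidHom.ext fun m => ?_)
          rw [hcjmul, hx, hy', hy]
        · refine Or.inr (MonoidHom.ext fun m => ?_)
          rw [hcjmul, hx, hy', hy]
        · refine Or.inr (MonoidHom.ext fun m => ?_)
          rw [hcjmul, hx, MonoidHom.inv_apply, hy', hy, MonoidHom.inv_apply]
        · refine Or.inl (MonoidHom.ext fun m => ?_)
          rw [hcjmul, hx, MonoidHom.inv_apply, hy', hy, MonoidHom.inv_apply, inv_inv]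
      inv_mem' := by
        intro x hx
        have e : ∀ m, l m = cj x (MulAut.conjNormal x⁻¹ m) := fun m => by
          rw [← hcjmul, mul_inv_cancel]; simp [cj]
        rcases hx with hx | hx
        · refine Or.inl (MonoidHom.ext fun m => ?_)
          rw [e m, hx]; rfl
        · refine Or.inr (MonoidHom.ext fun m => ?_)
          rw [MonoidHom.inv_apply, e m, hx, MonoidHom.inv_apply, inv_inv]; rfl }
  have hgTp : g ∈ Tp := Or.inr (MonoidHom.ext fun m => by rw [hcj, hgl, MonoidHom.inv_apply])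
  have hTTp : T ≤ Tp := fun x hx => Or.inl ((hmemT x).1 hx)
  have hnorm : Tp ≤ Subgroup.normalizer (T : Set G) := by
    intro x hx
    have hsym : ∀ y ∈ Tp, ∀ t ∈ T, y * t * y⁻¹ ∈ T := by
      intro y hy t ht
      rw [hmemT] at ht ⊢
      refine MonoidHom.ext fun m => ?_
      have hyv : ∀ m', l (MulAut.conjNormal y m') = cj y m' := fun _ => rfl
      have ht' : ∀ m', l (MulAut.conjNormal t m') = l m' := fun m' => DFunLike.congr_fun ht m'
      have hyi : ∀ m', MulAut.conjNormal y (MulAut.conjNormal y⁻¹ m') = (m' : M) := fun m' => by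
        rw [← MulAut.mul_apply, ← map_mul, mul_inv_cancel, map_one]; rfl
      show l (MulAut.conjNormal (y * t * y⁻¹) m) = l m
      conv_rhs => rw [← hyi m]
      rw [map_mul, map_mul, MulAut.mul_apply, MulAut.mul_apply, hyv, hyv]
      rcases hy with hy | hy
      · rw [hy, ht']
      · rw [hy, MonoidHom.inv_apply, MonoidHom.inv_apply, ht']
    rw [Subgroup.mem_normalizer_iff]
    intro t
    refine ⟨hsym x hx t, fun h => ?_⟩
    have := hsym x⁻¹ (Tp.inv_mem hx) _ h
    simpa [mul_assoc] using this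
  have hgp : IsPGroup 2 (Subgroup.zpowers (⟨g, hgTp⟩ : Tp)) := by
    obtain ⟨k, hk⟩ := hg
    refine IsPGroup.of_card (n := k) ?_
    rw [Nat.card_zpowers, ← hk]
    exact (Subgroup.orderOf_coe (⟨g, hgTp⟩ : Tp)).symm
  obtain ⟨S, hS⟩ := hgp.exists_le_sylow
  set S' := (S : Subgroup Tp).map Tp.subtype with hS'
  have hgS : g ∈ S' := ⟨⟨g, hgTp⟩, hS (Subgroup.mem_zpowers _), rfl⟩
  have hdis : M ⊓ (S' ⊓ T) = ⊥ := by
    obtain ⟨j, hj⟩ := IsPGroup.iff_card.1 (S.isPGroup'.map Tp.subtype)
    refine Subgroup.inf_eq_bot_of_coprime (?_ : (Nat.card M).Coprime (Nat.card ↥(S' ⊓ T)))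
    have hd : Nat.card ↥(S' ⊓ T) ∣ 2 ^ j := hj ▸ Subgroup.card_dvd_of_le inf_le_left
    exact ((Nat.coprime_two_right.2 hM).pow_right j).coprime_dvd_right hd
  refine exists_real_over_of_complement l (S' ⊓ T) hdis inf_le_right g (fun c hc => ?_) hgl ?_
  · exact ⟨S'.mul_mem (S'.mul_mem hgS hc.1) (S'.inv_mem hgS),
      (Subgroup.mem_normalizer_iff.1 (hnorm hgTp) c).1 hc.2⟩
  · have hS'Tp : S' ≤ Tp := Subgroup.map_subtype_le _
    have h1 : S'.relIndex Tp = (S : Subgroup Tp).index := by
      rw [Subgroup.relIndex, hS', Subgroup.subgroupOf,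
        Subgroup.comap_map_eq_self_of_injective Tp.subtype_injective]
    have h2 : Odd (S'.relIndex T) := by
      refine (Nat.odd_iff.2 (Nat.two_dvd_ne_zero.1 ?_)).of_dvd_nat
        (relIndex_dvd_of_normalized hS'Tp hTTp hnorm)
      rw [h1]
      exact S.not_dvd_index
    refine h2.of_dvd_nat ?_
    rw [← Subgroup.inf_relIndex_right S' T]
    exact Subgroup.relIndex_dvd_of_le_left _ le_sup_right

/-- A nontrivial `2`-power action on the linear characters gives an inverted nontrivial one. -/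
theorem exists_inverted (t : G) (ht : ∃ k, orderOf t = 2 ^ k) (l₀ : M →* ℂˣ) (m₀ : M)
    (hne : l₀ ⟨t * m₀ * t⁻¹, (inferInstance : M.Normal).conj_mem m₀ m₀.2 t⟩ ≠ l₀ m₀) :
    ∃ (g : G) (l : M →* ℂˣ), (∃ k, orderOf g = 2 ^ k) ∧ l ≠ 1 ∧
      ∀ m : M, l ⟨g * m * g⁻¹, (inferInstance : M.Normal).conj_mem m m.2 g⟩ = (l m)⁻¹ := by
  obtain ⟨k, hk⟩ := ht
  let act : G → (M →* ℂˣ) → (M →* ℂˣ) := fun x f => f.comp (MulAut.conjNormal x).toMonoidHom
  have hact : ∀ (x : G) (f : M →* ℂˣ) (m : M), act x f m =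
      f ⟨x * m * x⁻¹, (inferInstance : M.Normal).conj_mem m m.2 x⟩ := fun x f m =>
    congrArg f (Subtype.ext (MulAut.conjNormal_apply x m))
  have hmul : ∀ x y f, act (x * y) f = act y (act x f) := fun x y f => by
    ext m; simp [act]
  classical
  have hex : ∃ i, ∀ f, act (t ^ 2 ^ i) f = f := ⟨k, fun f => by
    rw [← hk, pow_orderOf_eq_one]; ext m; simp [act]⟩
  set i := Nat.find hex with hi
  have hspec : ∀ f, act (t ^ 2 ^ i) f = f := Nat.find_spec hex
  have hi0 : i ≠ 0 := fun h0 => hne (by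
    have := DFunLike.congr_fun (hspec l₀) m₀
    rw [h0, pow_zero, pow_one, hact] at this
    exact this)
  obtain ⟨f, hf⟩ := not_forall.1 (Nat.find_min hex (show i - 1 < i by omega))
  set g := t ^ 2 ^ (i - 1) with hg
  have hgg : ∀ f, act g (act g f) = f := fun f => by
    rw [← hmul, hg, ← pow_add, show 2 ^ (i - 1) + 2 ^ (i - 1) = 2 ^ i by
      rw [← two_mul, ← pow_succ', Nat.sub_add_cancel (Nat.one_le_iff_ne_zero.2 hi0)]]
    exact hspec f
  refine ⟨g, f / act g f, ?_, ?_, fun m => ?_⟩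
  · obtain ⟨j, -, hj⟩ := (Nat.dvd_prime_pow Nat.prime_two).1 (hk ▸ orderOf_pow_dvd (x := t) (2 ^ (i - 1)))
    exact ⟨j, hj⟩
  · intro h
    exact hf (div_eq_one.1 h).symm
  · rw [← hact g (f / act g f) m]
    show (f / act g f) (MulAut.conjNormal g m) = _
    rw [MonoidHom.div_apply, MonoidHom.div_apply, inv_div]
    exact congrArg (act g f m / ·) (DFunLike.congr_fun (hgg f) m)

end Cfsg.Agent.Lib.CharRealPrime
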