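import Cfsg.Agent.Lib.Char.OddIndexReal

/-!
# The real character above a real character of a normal subgroup of odd index

The counting of `OddIndexReal.unique_strongly_real`, for a real character of either indicator, with
the multiplicity.
-/

set_option autoImplicit false
set_option linter.style.haveILetI false

open Module
open scoped ComplexConjugate

namespace Cfsg.Agent.Lib.CharRealPrime

open Cfsg Cfsg.Agent.Lib.Char Cfsg.Agent.Lib.Char.OddIndexReal

universe u

variable {G : Type u} [Group G] [Fintype G] (N : Subgroup G) [N.Normal] [Fintype N]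

/-- A real character of a normal subgroup of odd index lies, with multiplicity one, under a unique
real character. -/
theorem exists_unique_real (hodd : Odd N.index) {φ : N → ℂ} (hφ : IsIrrCharacter N φ)
    (hφreal : ∀ n, conj (φ n) = φ n) :
    ∃ χ₀ : IrrCharacter G, (∀ g, ((χ₀ : G → ℂ) g).im = 0) ∧
      classInner (fun n : N => (χ₀ : G → ℂ) n) φ = 1 ∧
      ∀ χ : IrrCharacter G, (∀ g, ((χ : G → ℂ) g).im = 0) →
        classInner (fun n : N => (χ : G → ℂ) n) φ ≠ 0 → χ = χ₀ := by
  classical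
  choose m hm using fun χ : IrrCharacter G =>
    classInner_natCast (isCharacter_restrict (isCharacter_of_isIrr χ.2) N) (isCharacter_of_isIrr hφ)
  set t := (orbit N φ).card with ht
  let w : IrrCharacter G → ℂ := fun χ =>
    (t : ℂ) * φ 1 * (classInner (fun n : N => (χ : G → ℂ) n) φ / (χ : G → ℂ) 1)
  let isRe : IrrCharacter G → Prop := fun χ => (fun g => conj ((χ : G → ℂ) g)) = (χ : G → ℂ)
  have hw : ∀ χ, m χ ≠ 0 → w χ = 1 := by
    intro χ hne
    have hne' : classInner (fun n : N => (χ : G → ℂ) n) φ ≠ 0 := by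
      rw [hm]; exact Nat.cast_ne_zero.2 hne
    have hd := clifford_degree N χ.2 hφ hne'
    rw [← card_orbit N φ (irr_degree_ne_zero hφ), ← ht] at hd
    show (t : ℂ) * φ 1 * _ = 1
    rw [mul_div_assoc', div_eq_one_iff_eq (irr_degree_ne_zero χ.2), hd]
    ring
  have hw0 : ∀ χ, m χ = 0 → w χ = 0 := fun χ h => by
    show (t : ℂ) * φ 1 * _ = 0
    rw [hm, h, Nat.cast_zero, zero_div, mul_zero]
  have hre : ∀ χ : IrrCharacter G, classInner (χ : G → ℂ) (fun g => conj ((χ : G → ℂ) g)) =
      if isRe χ then 1 else 0 := fun χ => by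
    rw [classInner_irr χ.2 (isIrrCharacter_conj χ.2)]
    exact if_congr ⟨fun h => h.symm, fun h => h.symm⟩ rfl rfl
  -- the weighted norm computed on `N` alone
  have hsum : ∑ χ : IrrCharacter G, w χ * classInner (χ : G → ℂ) (fun g => conj ((χ : G → ℂ) g)) =
      (Nat.card G : ℂ)⁻¹ * ∑ n : N, ∑ χ : IrrCharacter G,
        w χ * ((χ : G → ℂ) n * (χ : G → ℂ) n) := by
    simp only [classInner, Complex.conj_conj]
    rw [Finset.sum_congr rfl fun χ _ => show w χ * ((Nat.card G : ℂ)⁻¹ *
        ∑ g : G, (χ : G → ℂ) g * (χ : G → ℂ) g) = (Nat.card G : ℂ)⁻¹ *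
        ∑ g : G, w χ * ((χ : G → ℂ) g * (χ : G → ℂ) g) by rw [mul_left_comm, Finset.mul_sum _ _ (w χ)],
      ← Finset.mul_sum]
    congr 1
    rw [Finset.sum_comm]
    rw [← Finset.sum_subset (Finset.subset_univ ((Finset.univ : Finset G).filter (· ∈ N)))
      (fun g _ hg => by
        have hg' : g ∉ N := fun h => hg (Finset.mem_filter.2 ⟨Finset.mem_univ g, h⟩)
        simp only [w, mul_assoc]
        rw [← Finset.mul_sum, ← Finset.mul_sum]
        have h0 := sum_weight_sq_eq_zero N hodd φ hg'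
        rw [h0, mul_zero, mul_zero])]
    exact Finset.sum_subtype ((Finset.univ : Finset G).filter (· ∈ N)) (by simp)
      (fun g : G => ∑ χ : IrrCharacter G, w χ * ((χ : G → ℂ) g * (χ : G → ℂ) g))
  have hnorm : ∀ χ : IrrCharacter G, w χ * ∑ n : N, (χ : G → ℂ) n * (χ : G → ℂ) n =
      (Nat.card N : ℂ) * ((m χ : ℂ) * (m χ : ℂ) * t) := by
    intro χ
    rcases eq_or_ne (m χ) 0 with h0 | h0
    · rw [hw0 χ h0, h0, zero_mul]
      simp
    rw [hw χ h0, one_mul]
    have hne' : classInner (fun n : N => (χ : G → ℂ) n) φ ≠ 0 := by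
      rw [hm]; exact Nat.cast_ne_zero.2 h0
    have hcl := clifford N χ.2 hφ hne'
    rw [hm] at hcl
    have horb : ∀ ψ ∈ orbit N φ, IsIrrCharacter N ψ ∧ ∀ n, conj (ψ n) = ψ n := by
      intro ψ hψ
      obtain ⟨g, rfl⟩ := (mem_orbit N).1 hψ
      exact ⟨isIrrCharacter_conjChar N g hφ, fun n => hφreal _⟩
    have hreal : ∀ n : N, conj ((χ : G → ℂ) n) = (χ : G → ℂ) n := fun n => by
      have e := congrFun hcl n
      simp only [Pi.smul_apply, smul_eq_mul, Finset.sum_apply] at e
      rw [e, map_mul, map_natCast, map_sum]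
      congr 1
      exact Finset.sum_congr rfl fun ψ hψ => (horb ψ hψ).2 n
    have hn : classInner (fun n : N => (χ : G → ℂ) n) (fun n : N => (χ : G → ℂ) n) =
        (m χ : ℂ) * (m χ : ℂ) * t := by
      conv_lhs => rw [hcl]
      rw [classInner_smul_left, classInner_smul_right, map_natCast, classInner_sum_left,
        Finset.sum_congr rfl (g := fun _ => (1 : ℂ)) fun ψ hψ => ?_]
      · rw [Finset.sum_const, nsmul_eq_mul, mul_one, mul_assoc, ht]
      · rw [classInner_sum_right, Finset.sum_congr rfl fun ψ' hψ' =>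
          classInner_irr (horb ψ hψ).1 (horb ψ' hψ').1, Finset.sum_ite_eq, if_pos hψ]
    simp only [classInner, hreal] at hn
    rw [← hn, mul_inv_cancel_left₀ (card_ne_zero_complex N)]
  -- the norm of the induced character
  have hind : ∑ χ : IrrCharacter G, (m χ : ℂ) * (m χ : ℂ) =
      (Nat.card N : ℂ)⁻¹ * (Nat.card (inertia N φ) : ℂ) := by
    rw [← classInner_indFun_self N hφ,
      classInner_eq_sum (isClassFunction_indFun N φ)]
    refine Finset.sum_congr rfl fun χ _ => ?_
    have e : classInner (indFun N φ) (χ : G → ℂ) = (m χ : ℂ) := by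
      rw [classInner_conj_symm, classInner_indFun_right N φ (isClassFunction_of_isIrr χ.2), hm,
        map_natCast]
    rw [e, map_natCast]
  have hcount : ((Finset.univ.filter fun χ : IrrCharacter G => m χ ≠ 0 ∧ isRe χ).card : ℂ) = 1 := by
    have h1 : ∑ χ : IrrCharacter G, w χ * classInner (χ : G → ℂ) (fun g => conj ((χ : G → ℂ) g)) =
        ((Finset.univ.filter fun χ : IrrCharacter G => m χ ≠ 0 ∧ isRe χ).card : ℂ) := by
      rw [← Finset.sum_boole]
      refine Finset.sum_congr rfl fun χ _ => ?_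
      rw [hre]
      rcases eq_or_ne (m χ) 0 with h0 | h0
      · rw [hw0 χ h0, zero_mul, if_neg (fun h => h.1 h0)]
      · rw [hw χ h0, one_mul]
        exact if_congr ⟨fun h => ⟨h0, h⟩, fun h => h.2⟩ rfl rfl
    rw [← h1, hsum, Finset.sum_comm]
    simp only [← Finset.mul_sum]
    rw [Finset.sum_congr rfl fun χ _ => hnorm χ, ← Finset.mul_sum, ← Finset.sum_mul, hind, ht,
      card_orbit N φ (irr_degree_ne_zero hφ), ← (inertia N φ).card_mul_index, Nat.cast_mul]
    have hN := card_ne_zero_complex N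
    have hI := card_ne_zero_complex (inertia N φ)
    have hi : ((inertia N φ).index : ℂ) ≠ 0 :=
      Nat.cast_ne_zero.2 Subgroup.index_ne_zero_of_finite
    field_simp
  obtain ⟨χ₀, hχ₀⟩ := Finset.card_eq_one.1 (by exact_mod_cast hcount :
    (Finset.univ.filter fun χ : IrrCharacter G => m χ ≠ 0 ∧ isRe χ).card = 1)
  have hmem : ∀ χ, (m χ ≠ 0 ∧ isRe χ) ↔ χ = χ₀ := fun χ => by
    have := Finset.ext_iff.1 hχ₀ χ
    simpa using this
  -- the indicator
  have hνsum : ∑ χ : IrrCharacter G, fsInd (χ : G → ℂ) * (m χ : ℂ) = fsInd φ := by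
    have hr : ∀ n : N, ∑ χ : IrrCharacter G, fsInd (χ : G → ℂ) * (χ : G → ℂ) n =
        ∑ ψ : IrrCharacter N, fsInd (ψ : N → ℂ) * (ψ : N → ℂ) n := by
      intro n
      rw [← card_sqrt_eq_sum, ← card_sqrt_eq_sum, Nat.cast_inj]
      refine Finset.card_bij' (fun s hs => ⟨s, mem_of_sq_mem N hodd
        ((Finset.mem_filter.1 hs).2 ▸ n.2)⟩) (fun s _ => (s : G)) ?_ ?_ ?_ ?_
      · intro s hs
        simp only [Finset.coe_filter, Finset.mem_filter, Finset.mem_univ, true_and, Set.mem_ofPred_eq] at hs ⊢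
        exact Subtype.ext hs
      · intro s hs
        simp only [Finset.coe_filter, Finset.mem_filter, Finset.mem_univ, true_and, Set.mem_ofPred_eq] at hs ⊢
        exact congrArg Subtype.val hs
      · intros; rfl
      · intros; rfl
    have h1 : classInner (fun n : N => ∑ χ : IrrCharacter G, fsInd (χ : G → ℂ) * (χ : G → ℂ) n) φ =
        ∑ χ : IrrCharacter G, fsInd (χ : G → ℂ) * (m χ : ℂ) := by
      simp only [← hm, classInner, Finset.mul_sum, Finset.sum_mul]
      rw [Finset.sum_comm]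
      exact Finset.sum_congr rfl fun χ _ => Finset.sum_congr rfl fun n _ => by ring
    rw [← h1, funext hr, show (fun n : N => ∑ ψ : IrrCharacter N, fsInd (ψ : N → ℂ) * (ψ : N → ℂ) n) =
      ∑ ψ : IrrCharacter N, fsInd (ψ : N → ℂ) • (ψ : N → ℂ) from funext fun n => by
        simp [Finset.sum_apply], classInner_sum_left]
    simp only [classInner_smul_left]
    rw [Finset.sum_eq_single (⟨φ, hφ⟩ : IrrCharacter N)]
    · rw [classInner_irr_self hφ, mul_one]
    · intro ψ _ hψ
      rw [classInner_irr_ne ψ.2 hφ fun h => hψ (Subtype.ext h), mul_zero]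
    · intro h
      exact absurd (Finset.mem_univ _) h
  have hnotre : ∀ χ : IrrCharacter G, ¬ isRe χ → fsInd (χ : G → ℂ) = 0 := fun χ h => by
    refine (fsInd_irr χ.2).2.2 ?_
    by_contra hc
    push Not at hc
    exact h (funext fun g => Complex.conj_eq_iff_im.2 (hc g))
  rw [Finset.sum_eq_single χ₀ (fun χ _ hne => by
    rcases eq_or_ne (m χ) 0 with h0 | h0
    · rw [h0, Nat.cast_zero, mul_zero]
    · rw [hnotre χ (fun h => hne ((hmem χ).1 ⟨h0, h⟩)), zero_mul])
    (fun h => absurd (Finset.mem_univ _) h)] at hνsum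
  have hφν : fsInd φ = 1 ∨ fsInd φ = -1 := (fsInd_irr hφ).1.resolve_left fun h => by
    obtain ⟨s, hs⟩ := (fsInd_irr hφ).2.1 h
    exact hs (Complex.conj_eq_iff_im.1 (hφreal s))
  have hr0 : ∀ g, ((χ₀ : G → ℂ) g).im = 0 := fun g =>
    Complex.conj_eq_iff_im.1 (congrFun ((hmem χ₀).2 rfl).2 g)
  have hν0 : fsInd (χ₀ : G → ℂ) = 1 ∨ fsInd (χ₀ : G → ℂ) = -1 :=
    (fsInd_irr χ₀.2).1.resolve_left fun h => by
      obtain ⟨s, hs⟩ := (fsInd_irr χ₀.2).2.1 h
      exact hs (hr0 s)
  have hm1 : (m χ₀ : ℂ) = 1 := by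
    have h2 : (m χ₀ : ℂ) = 1 ∨ (m χ₀ : ℂ) = -1 := by
      rcases hν0 with h | h <;> rcases hφν with h' | h' <;> rw [h, h'] at hνsum <;>
        first
          | exact Or.inl (by linear_combination hνsum)
          | exact Or.inl (by linear_combination -hνsum)
          | exact Or.inr (by linear_combination hνsum)
          | exact Or.inr (by linear_combination -hνsum)
    refine h2.resolve_right fun h => ?_
    have h3 := congrArg Complex.re h
    simp at h3
    have h0 : (0 : ℝ) ≤ (m χ₀ : ℝ) := Nat.cast_nonneg _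
    linarith
  refine ⟨χ₀, hr0, by rw [hm, hm1], fun χ hr hne => ?_⟩
  exact (hmem χ).1 ⟨fun h0 => hne (by rw [hm, h0, Nat.cast_zero]),
    funext fun g => Complex.conj_eq_iff_im.2 (hr g)⟩

end Cfsg.Agent.Lib.CharRealPrime
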