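import Cfsg.Agent.Lib.CharRealPrime.Local
import Cfsg.Agent.Lib.CharRealPrime.Unique
import Cfsg.Agent.Lib.Char.BrauerPerm

/-!
# Real characters of degree prime to `p` and the Sylow normaliser
-/

set_option autoImplicit false
set_option linter.unusedSectionVars false
set_option linter.style.haveILetI false

open scoped ComplexConjugate

namespace Cfsg.Agent.Lib.CharRealPrime

open Cfsg Cfsg.Agent.Lib Cfsg.Agent.Lib.Char

universe u

variable {G : Type u} [Group G] [Finite G]

theorem elemClosure_two_index_odd : Odd (elemClosure G 2).index := by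
  haveI : Fact (Nat.Prime 2) := ⟨Nat.prime_two⟩
  obtain ⟨S⟩ := (inferInstance : Nonempty (Sylow 2 G))
  have hle : (S : Subgroup G) ≤ elemClosure G 2 := fun x hx => by
    obtain ⟨k, hk⟩ := S.isPGroup' ⟨x, hx⟩
    obtain ⟨j, -, hj⟩ := (Nat.dvd_prime_pow Nat.prime_two).1
      (orderOf_dvd_of_pow_eq_one (show x ^ 2 ^ k = 1 from congrArg Subtype.val hk))
    exact Subgroup.subset_closure ⟨j, hj⟩
  exact (Nat.odd_iff.2 (Nat.two_dvd_ne_zero.1 S.not_dvd_index)).of_dvd_nat
    (Subgroup.index_dvd_of_le hle)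

/-- The Sylow subgroup meets the subgroup generated by the `2`-elements in a normal subgroup. -/
theorem inf_sylow_normal {p : ℕ} [Fact p.Prime] (h : RealPrimeTo G p) (P : Sylow p G) :
    ((P : Subgroup G).subgroupOf (elemClosure G 2)).Normal := by
  haveI := elemClosure_normal (G := G) 2
  have hi : ¬ p ∣ ((P : Subgroup G).subgroupOf (elemClosure G 2)).index := by
    intro hd
    refine P.not_dvd_index (hd.trans ?_)
    show (P : Subgroup G).relIndex (elemClosure G 2) ∣ _
    rw [← Subgroup.relIndex_top_right (P : Subgroup G)]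
    exact relIndex_dvd_of_normalized (H := ⊤) le_top le_top
      (fun g _ => by rw [Subgroup.normalizer_eq_top]; exact Subgroup.mem_top g)
  have hS := sylow_normal h (elemClosure G 2) (elemClosure_normal 2) le_rfl
    ⟨0, by rw [Subgroup.relIndex_self, pow_zero]⟩
    ((P.isPGroup'.comap_of_injective (elemClosure G 2).subtype
      (elemClosure G 2).subtype_injective).toSylow hi)
  exact hS

/-- The constituents of a real character on a normal subgroup of odd index are real. -/
theorem constituent_real [Fintype G] {K : Subgroup G} [K.Normal] [Fintype K] (hodd : Odd K.index)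
    {χ : IrrCharacter G} (hr : ∀ g, ((χ : G → ℂ) g).im = 0) {θ : IrrCharacter K}
    (h : classInner (fun n : K => (χ : G → ℂ) n) (θ : K → ℂ) ≠ 0) (n : K) :
    ((θ : K → ℂ) n).im = 0 := by
  classical
  have hcard : Odd (orbit K (θ : K → ℂ)).card := by
    rw [card_orbit K _ (irr_degree_ne_zero θ.2)]
    exact hodd.of_dvd_nat (Subgroup.index_dvd_of_le (le_inertia K (isClassFunction_of_isIrr θ.2)))
  have hmem : ∀ ψ ∈ orbit K (θ : K → ℂ), (fun x => conj (ψ x)) ∈ orbit K (θ : K → ℂ) := by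
    intro ψ hψ
    obtain ⟨g, rfl⟩ := (mem_orbit K).1 hψ
    have h0 : classInner (fun n : K => (χ : G → ℂ) n) (conjChar K g (θ : K → ℂ)) ≠ 0 := by
      conv => arg 1; arg 1; rw [← conjChar_restrict K (isClassFunction_of_isIrr χ.2) g]
      rwa [classInner_conjChar]
    refine (mem_orbit K).2 (conjugate_of_constituents K χ.2 θ.2
      (isIrrCharacter_conj (isIrrCharacter_conjChar K g θ.2)) h fun h1 => h0 ?_)
    have h2 : classInner (fun n : K => (χ : G → ℂ) n) (fun x => conj (conjChar K g (θ : K → ℂ) x)) =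
        conj (classInner (fun n : K => (χ : G → ℂ) n) (conjChar K g (θ : K → ℂ))) := by
      simp [classInner, map_sum, Complex.conj_eq_iff_im.2 (hr _)]
    rwa [h2, map_eq_zero] at h1
  obtain ⟨ψ, hψ, hfix⟩ : ∃ ψ ∈ orbit K (θ : K → ℂ), (fun x => conj (ψ x)) = ψ := by
    by_contra! hc
    refine Nat.not_even_iff_odd.2 hcard ?_
    have h0 : ((orbit K (θ : K → ℂ)).card : ZMod 2) = 0 := by
      rw [Finset.card_eq_sum_ones, Nat.cast_sum]
      exact Finset.sum_involution (fun ψ _ => fun x => conj (ψ x)) (fun ψ _ => by decide)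
        (fun ψ hψ _ => hc ψ hψ) hmem (fun ψ _ => funext fun x => Complex.conj_conj _)
    exact (ZMod.natCast_eq_zero_iff_even).1 h0
  obtain ⟨g, hg⟩ := (mem_orbit K).1 hψ
  have e : (θ : K → ℂ) = conjChar K g⁻¹ ψ := by
    rw [← hg, ← conjChar_mul, mul_inv_cancel, conjChar_one]
  rw [e, conjChar_apply]
  exact Complex.conj_eq_iff_im.1 (congrFun hfix _)

/-- The degree of the real character over a real character. -/
theorem degree_of_mult_one [Fintype G] {K : Subgroup G} [K.Normal] [Fintype K] {χ : IrrCharacter G}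
    {θ : IrrCharacter K} (h : classInner (fun n : K => (χ : G → ℂ) n) (θ : K → ℂ) = 1) :
    charDegree (χ : G → ℂ) = (inertia K (θ : K → ℂ)).index * charDegree (θ : K → ℂ) := by
  have h1 := clifford_degree K χ.2 θ.2 (by rw [h]; exact one_ne_zero)
  rw [h, one_mul, apply_one_eq_charDegree (isCharacter_of_isIrr χ.2),
    apply_one_eq_charDegree (isCharacter_of_isIrr θ.2)] at h1
  exact_mod_cast h1

theorem classInner_conj_constituent [Fintype G] {K : Subgroup G} [K.Normal] [Fintype K]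
    (χ : IrrCharacter G) (θ : K → ℂ) (g : G) :
    classInner (fun n : K => (χ : G → ℂ) n) (conjChar K g θ) =
      classInner (fun n : K => (χ : G → ℂ) n) θ := by
  conv_lhs => rw [← conjChar_restrict K (isClassFunction_of_isIrr χ.2) g]
  rw [classInner_conjChar]

theorem inertia_conjChar_mem {K : Subgroup G} [K.Normal] (θ : K → ℂ) (g x : G)
    (h : g * x * g⁻¹ ∈ inertia K θ) : x ∈ inertia K (conjChar K g θ) := by
  rw [mem_inertia, ← conjChar_mul, show g * x = (g * x * g⁻¹) * g by group, conjChar_mul,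
    (mem_inertia K).1 h]

/-- Two conjugate characters fixed by a Sylow subgroup are conjugate in its normaliser. -/
theorem exists_normalizer_conj {p : ℕ} [Fact p.Prime] {K : Subgroup G} [K.Normal] (P : Sylow p G)
    {θ : K → ℂ} {g : G} (h1 : (P : Subgroup G) ≤ inertia K θ)
    (h2 : (P : Subgroup G) ≤ inertia K (conjChar K g θ)) :
    ∃ n ∈ Subgroup.normalizer ((P : Subgroup G) : Set G), conjChar K n θ = conjChar K g θ := by
  set I := inertia K θ
  have hsub : ((g • P : Sylow p G) : Subgroup G) ≤ I := by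
    rw [Sylow.coe_subgroup_smul]
    rintro _ ⟨x, hx, rfl⟩
    show g * x * g⁻¹ ∈ I
    have hx' := (mem_inertia K).1 (h2 hx)
    rw [← conjChar_mul] at hx'
    rw [mem_inertia, mul_assoc, ← mul_assoc g, conjChar_mul, hx', ← conjChar_mul, mul_inv_cancel,
      conjChar_one]
  obtain ⟨c, hc⟩ := MulAction.exists_smul_eq I ((g • P).subtype hsub) (P.subtype h1)
  rw [Sylow.smul_subtype] at hc
  have hc' := Sylow.subtype_injective hc
  refine ⟨(c : G) * g, Sylow.smul_eq_iff_mem_normalizer.1 ?_, ?_⟩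
  · rw [mul_smul]
    exact hc'
  · rw [conjChar_mul, (mem_inertia K).1 c.2]

/-- The indices of a subgroup and of its trace on a Sylow normaliser agree modulo `p`. -/
theorem index_modEq {p : ℕ} [hp : Fact p.Prime] (P : Sylow p G) (I : Subgroup G)
    (h : (P : Subgroup G) ≤ I) :
    ((I.subgroupOf (Subgroup.normalizer ((P : Subgroup G) : Set G))).index : ZMod p) =
      (I.index : ZMod p) := by
  set N := Subgroup.normalizer ((P : Subgroup G) : Set G)
  have hN : (N.index : ZMod p) = 1 := by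
    have e : Nat.card (Sylow p G) = N.index := P.card_eq_index_normalizer
    rw [← e, ← Nat.cast_one, ZMod.natCast_eq_natCast_iff]
    exact card_sylow_modEq_one p G
  have hI : (N.relIndex I : ZMod p) = 1 := by
    have hnorm : Subgroup.normalizer (((P.subtype h : Sylow p I) : Subgroup I) : Set I) =
        N.subgroupOf I := by
      rw [Sylow.coe_subtype, Subgroup.subgroupOf_normalizer_eq h]
    have e : Nat.card (Sylow p I) = N.relIndex I := by
      rw [Subgroup.relIndex, ← hnorm]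
      exact (P.subtype h).card_eq_index_normalizer
    rw [← e, ← Nat.cast_one, ZMod.natCast_eq_natCast_iff]
    exact card_sylow_modEq_one p I
  have h1 : I.relIndex N * N.index = N.relIndex I * I.index := by
    rw [← Subgroup.inf_relIndex_right I N, ← Subgroup.inf_relIndex_right N I,
      Subgroup.relIndex_mul_index inf_le_right, Subgroup.relIndex_mul_index inf_le_right, inf_comm]
  have h2 := congrArg (fun m : ℕ => (m : ZMod p)) h1
  simp only [Nat.cast_mul, hN, hI, mul_one, one_mul] at h2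
  exact h2

set_option maxHeartbeats 800000 in
/-- **The bijection.** -/
theorem exists_bijection {p : ℕ} [hp : Fact p.Prime] (h : RealPrimeTo G p) (P : Sylow p G) :
    ∃ f : {χ : IrrCharacter G // ∀ g : G, ((χ : G → ℂ) g).im = 0} →
      {ξ : IrrCharacter (Subgroup.normalizer ((P : Subgroup G) : Set G)) //
        (∀ n, ((ξ : Subgroup.normalizer ((P : Subgroup G) : Set G) → ℂ) n).im = 0) ∧
          ¬ p ∣ charDegree (ξ : Subgroup.normalizer ((P : Subgroup G) : Set G) → ℂ)},
      Function.Bijective f ∧ ∀ χ,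
        ((charDegree ((f χ).1 : Subgroup.normalizer ((P : Subgroup G) : Set G) → ℂ) : ZMod p) =
            (charDegree (χ.1 : G → ℂ) : ZMod p) ∨
          (charDegree ((f χ).1 : Subgroup.normalizer ((P : Subgroup G) : Set G) → ℂ) : ZMod p) =
            -(charDegree (χ.1 : G → ℂ) : ZMod p)) := by
  classical
  haveI := Fintype.ofFinite G
  set N := Subgroup.normalizer ((P : Subgroup G) : Set G) with hN
  set K := elemClosure G 2 with hK
  haveI hKn : K.Normal := elemClosure_normal 2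
  haveI : Fintype K := Fintype.ofFinite K
  haveI : Fintype N := Fintype.ofFinite N
  haveI : Fintype (locK K P) := Fintype.ofFinite _
  haveI hLn : (locK K P).Normal := inferInstance
  have hKodd : Odd K.index := elemClosure_two_index_odd
  have hLodd : Odd (locK K P).index := hKodd.of_dvd_nat (Subgroup.relIndex_dvd_index_of_normal K N)
  obtain ⟨f, hf, hfdeg, hfeq⟩ := exists_real_corr (inf_sylow_normal h P)
  let R : {χ : IrrCharacter G // ∀ g : G, ((χ : G → ℂ) g).im = 0} → IrrCharacter N → Prop :=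
    fun χ ξ => ∃ θ, classInner (fun k : K => (χ.1 : G → ℂ) k) (θ.1 : K → ℂ) ≠ 0 ∧
      (∀ n, ((ξ : N → ℂ) n).im = 0) ∧
      classInner (fun c : locK K P => (ξ : N → ℂ) c) ((f θ).1 : locK K P → ℂ) ≠ 0
  -- transport along the normaliser
  have hmove : ∀ θ θ', (∃ g : G, conjChar K g (θ.1 : K → ℂ) = (θ'.1 : K → ℂ)) →
      ∃ n : N, conjChar (locK K P) n ((f θ).1 : locK K P → ℂ) = ((f θ').1 : locK K P → ℂ) := by
    rintro θ θ' ⟨g, hg⟩
    obtain ⟨n, hn, he⟩ := exists_normalizer_conj P θ.2.2 (g := g) (by rw [hg]; exact θ'.2.2)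
    exact ⟨⟨n, hn⟩, hfeq ⟨n, hn⟩ θ θ' (he.trans hg)⟩
  have hback : ∀ θ θ' (n : N),
      conjChar (locK K P) n ((f θ).1 : locK K P → ℂ) = ((f θ').1 : locK K P → ℂ) →
        conjChar K (n : G) (θ.1 : K → ℂ) = (θ'.1 : K → ℂ) := by
    intro θ θ' n hn
    have hP : (P : Subgroup G) ≤ inertia K (conjChar K (n : G) (θ.1 : K → ℂ)) := fun x hx =>
      inertia_conjChar_mem _ _ _ (θ.2.2 ((Subgroup.mem_normalizer_iff.1 n.2 x).1 hx))
    let θn : {θ : IrrCharacter K //
        (∀ k, ((θ : K → ℂ) k).im = 0) ∧ (P : Subgroup G) ≤ inertia K (θ : K → ℂ)} :=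
      ⟨conjIrr K (n : G) θ.1, fun k => θ.2.1 _, hP⟩
    have h1 := hfeq n θ θn rfl
    have h2 : θn = θ' := hf.1 (Subtype.ext (Subtype.ext (h1.symm.trans hn)))
    exact congrArg (fun z => (z.1 : K → ℂ)) h2
  -- the degrees
  have hdeg : ∀ χ ξ, R χ ξ →
      ¬ p ∣ charDegree (ξ : N → ℂ) ∧
        ((charDegree (ξ : N → ℂ) : ZMod p) = (charDegree (χ.1 : G → ℂ) : ZMod p) ∨
          (charDegree (ξ : N → ℂ) : ZMod p) = -(charDegree (χ.1 : G → ℂ) : ZMod p)) := by
    rintro χ ξ ⟨θ, hχ, hξr, hξ⟩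
    obtain ⟨χ₀, -, hm, hu⟩ := exists_unique_real K hKodd θ.1.2
      (fun k => Complex.conj_eq_iff_im.2 (θ.2.1 k))
    rw [← hu χ.1 χ.2 hχ] at hm
    obtain ⟨ξ₀, -, hm', hu'⟩ := exists_unique_real (locK K P) hLodd (f θ).1.2
      (fun k => Complex.conj_eq_iff_im.2 ((f θ).2.1 k))
    rw [← hu' ξ hξr hξ] at hm'
    have e1 := degree_of_mult_one hm
    have e2 := degree_of_mult_one hm'
    have hI : (inertia K (θ.1 : K → ℂ)).subgroupOf N =
        inertia (locK K P) ((f θ).1 : locK K P → ℂ) := by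
      ext n
      rw [Subgroup.mem_subgroupOf, mem_inertia, mem_inertia]
      exact ⟨fun hn => hfeq n θ θ hn, fun hn => hback θ θ n hn⟩
    have hmod := index_modEq P _ θ.2.2
    rw [hI] at hmod
    have hχd : (charDegree (χ.1 : G → ℂ) : ZMod p) ≠ 0 := fun h0 =>
      h.2 χ.1 χ.2 ((ZMod.natCast_eq_zero_iff _ _).1 h0)
    have key : (charDegree (ξ : N → ℂ) : ZMod p) = (charDegree (χ.1 : G → ℂ) : ZMod p) ∨
        (charDegree (ξ : N → ℂ) : ZMod p) = -(charDegree (χ.1 : G → ℂ) : ZMod p) := by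
      rw [e1, e2, Nat.cast_mul, Nat.cast_mul, hmod]
      rcases hfdeg θ with e | e <;> rw [e]
      · exact Or.inl rfl
      · exact Or.inr (by ring)
    refine ⟨fun hd => ?_, key⟩
    have h0 : (charDegree (ξ : N → ℂ) : ZMod p) = 0 := (ZMod.natCast_eq_zero_iff _ _).2 hd
    rcases key with e | e <;> rw [h0] at e
    · exact hχd e.symm
    · exact hχd (neg_eq_zero.1 e.symm)
  -- totality
  have htot : ∀ χ, ∃ ξ : {ξ : IrrCharacter N // (∀ n, ((ξ : N → ℂ) n).im = 0) ∧
      ¬ p ∣ charDegree (ξ : N → ℂ)}, R χ ξ.1 := by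
    intro χ
    have hne : (fun k : K => (χ.1 : G → ℂ) k) ≠ 0 := fun h0 =>
      irr_degree_ne_zero χ.1.2 (congrFun h0 1)
    obtain ⟨θ, hθ⟩ := exists_constituent
      (isCharacter_restrict (isCharacter_of_isIrr χ.1.2) K) hne
    have hθr := constituent_real hKodd χ.2 hθ
    obtain ⟨χ₀, -, hm, hu⟩ := exists_unique_real K hKodd θ.2
      (fun k => Complex.conj_eq_iff_im.2 (hθr k))
    rw [← hu χ.1 χ.2 hθ] at hm
    have hi : ¬ p ∣ (inertia K (θ : K → ℂ)).index := fun hd =>
      h.2 χ.1 χ.2 (degree_of_mult_one hm ▸ dvd_mul_of_dvd_left hd _)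
    obtain ⟨S⟩ := (inferInstance : Nonempty (Sylow p (inertia K (θ : K → ℂ))))
    have hSi : ¬ p ∣ ((S : Subgroup (inertia K (θ : K → ℂ))).map
        (inertia K (θ : K → ℂ)).subtype).index := by
      rw [Subgroup.index_map_subtype]
      exact fun hd => (hp.out.dvd_mul.1 hd).elim S.not_dvd_index hi
    set S' : Sylow p G := (S.isPGroup'.map (inertia K (θ : K → ℂ)).subtype).toSylow hSi with hS'
    obtain ⟨g, hg⟩ := MulAction.exists_smul_eq G P S'
    have hP : (P : Subgroup G) ≤ inertia K (conjChar K g (θ : K → ℂ)) := by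
      intro x hx
      refine inertia_conjChar_mem _ _ _ ?_
      have h1 : g * x * g⁻¹ ∈ (S' : Subgroup G) := by
        rw [← hg, Sylow.coe_subgroup_smul]
        exact ⟨x, hx, rfl⟩
      rw [hS', IsPGroup.toSylow_coe] at h1
      exact Subgroup.map_subtype_le _ h1
    let θ' : {θ : IrrCharacter K //
        (∀ k, ((θ : K → ℂ) k).im = 0) ∧ (P : Subgroup G) ≤ inertia K (θ : K → ℂ)} :=
      ⟨conjIrr K g θ, fun k => hθr _, hP⟩
    obtain ⟨ξ, hξr, hmξ, -⟩ := exists_unique_real (locK K P) hLodd (f θ').1.2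
      (fun k => Complex.conj_eq_iff_im.2 ((f θ').2.1 k))
    have hR : R χ ξ := ⟨θ', by
      show classInner (fun k : K => (χ.1 : G → ℂ) k) (conjChar K g (θ : K → ℂ)) ≠ 0
      rw [classInner_conj_constituent]; exact hθ, hξr, by rw [hmξ]; exact one_ne_zero⟩
    exact ⟨⟨ξ, hξr, (hdeg χ ξ hR).1⟩, hR⟩
  -- functional both ways
  have hfun : ∀ χ ξ ξ', R χ ξ → R χ ξ' → ξ = ξ' := by
    rintro χ ξ ξ' ⟨θ, hχ, hξr, hξ⟩ ⟨θ', hχ', hξr', hξ'⟩
    obtain ⟨n, hn⟩ := hmove θ θ' (conjugate_of_constituents K χ.1.2 θ.1.2 θ'.1.2 hχ hχ')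
    obtain ⟨ξ₀, -, -, hu⟩ := exists_unique_real (locK K P) hLodd (f θ').1.2
      (fun k => Complex.conj_eq_iff_im.2 ((f θ').2.1 k))
    rw [hu ξ' hξr' hξ']
    refine hu ξ hξr ?_
    rw [← hn, classInner_conj_constituent]
    exact hξ
  have hinj : ∀ χ χ' ξ, R χ ξ → R χ' ξ → χ = χ' := by
    rintro χ χ' ξ ⟨θ, hχ, -, hξ⟩ ⟨θ', hχ', -, hξ'⟩
    obtain ⟨n, hn⟩ := conjugate_of_constituents (locK K P) ξ.2 (f θ).1.2 (f θ').1.2 hξ hξ'
    have hθ := hback θ θ' n hn
    obtain ⟨χ₀, -, -, hu⟩ := exists_unique_real K hKodd θ'.1.2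
      (fun k => Complex.conj_eq_iff_im.2 (θ'.2.1 k))
    refine Subtype.ext ((hu χ.1 χ.2 ?_).trans (hu χ'.1 χ'.2 hχ').symm)
    rw [← hθ, classInner_conj_constituent]
    exact hχ
  choose F hF using htot
  refine ⟨F, ⟨fun χ χ' e => hinj χ χ' _ (hF χ) (by rw [e]; exact hF χ'), fun ξ => ?_⟩,
    fun χ => (hdeg χ _ (hF χ)).2⟩
  obtain ⟨ξ, hξr, hξd⟩ := ξ
  have hne : (fun c : locK K P => (ξ : N → ℂ) c) ≠ 0 := fun h0 =>
    irr_degree_ne_zero ξ.2 (congrFun h0 1)
  obtain ⟨η, hη⟩ := exists_constituent (isCharacter_restrict (isCharacter_of_isIrr ξ.2) (locK K P)) hne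
  have hηr := constituent_real hLodd hξr hη
  obtain ⟨ξ₀, -, hm, hu⟩ := exists_unique_real (locK K P) hLodd η.2
    (fun k => Complex.conj_eq_iff_im.2 (hηr k))
  rw [← hu ξ hξr hη] at hm
  have hi : ¬ p ∣ (inertia (locK K P) (η : locK K P → ℂ)).index := fun hd =>
    hξd (degree_of_mult_one hm ▸ dvd_mul_of_dvd_left hd _)
  have hηP : (P : Subgroup G).subgroupOf N ≤ inertia (locK K P) (η : locK K P → ℂ) := by
    set J := inertia (locK K P) (η : locK K P → ℂ)
    haveI : ((P : Subgroup G).subgroupOf N).Normal := Subgroup.normal_in_normalizer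
    obtain ⟨S⟩ := (inferInstance : Nonempty (Sylow p J))
    have hSi : ¬ p ∣ ((S : Subgroup J).map J.subtype).index := by
      rw [Subgroup.index_map_subtype]
      exact fun hd => (hp.out.dvd_mul.1 hd).elim S.not_dvd_index hi
    set S' : Sylow p N := (S.isPGroup'.map J.subtype).toSylow hSi with hS'
    have h1 : (P : Subgroup G).subgroupOf N ≤ (S' : Subgroup N) :=
      IsPGroup.le_sylow_of_normal (N := (P : Subgroup G).subgroupOf N)
        (P.isPGroup'.comap_of_injective N.subtype N.subtype_injective) S'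
    rw [hS', IsPGroup.toSylow_coe] at h1
    exact h1.trans (Subgroup.map_subtype_le _)
  obtain ⟨θ, hθ⟩ := hf.2 ⟨η, hηr, hηP⟩
  obtain ⟨χ, hχr, hmχ, -⟩ := exists_unique_real K hKodd θ.1.2
    (fun k => Complex.conj_eq_iff_im.2 (θ.2.1 k))
  have hR : R ⟨χ, hχr⟩ ξ := ⟨θ, by rw [hmχ]; exact one_ne_zero, hξr, by rw [hθ]; exact hη⟩
  exact ⟨⟨χ, hχr⟩, Subtype.ext (hfun _ _ _ (hF _) hR)⟩

end Cfsg.Agent.Lib.CharRealPrime
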