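import Cfsg.Agent.Lib.CharRealPrime.Main
import Cfsg.Agent.Lib.Glauberman.Correspondence
import Cfsg.Agent.Lib.Char.Clifford
import Mathlib.Algebra.CharP.Two

/-!
# The correspondence between a normal subgroup with normal Sylow subgroup and its intersection with
a Sylow normaliser, on real invariant characters
-/

set_option autoImplicit false
set_option linter.unusedSectionVars false
set_option linter.style.haveILetI false

open scoped ComplexConjugate

namespace Cfsg.Agent.Lib.CharRealPrime

open Cfsg Cfsg.Agent.Lib Cfsg.Agent.Lib.Char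

universe u

variable {G : Type u} [Group G] [Finite G] {p : ℕ} [Fact p.Prime]

/-- Conjugation of irreducible characters of a normal subgroup. -/
def conjIrr (K : Subgroup G) [K.Normal] (g : G) (θ : IrrCharacter K) : IrrCharacter K :=
  ⟨conjChar K g θ, isIrrCharacter_conjChar K g θ.2⟩

variable (K : Subgroup G) [K.Normal] (P : Sylow p G)

/-- The intersection of the normal subgroup with the Sylow normaliser, inside the normaliser. -/
abbrev locK : Subgroup (Subgroup.normalizer ((P : Subgroup G) : Set G)) :=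
  K.subgroupOf (Subgroup.normalizer ((P : Subgroup G) : Set G))

/-- The same, inside the normal subgroup. -/
abbrev fixK : Subgroup K := (Subgroup.normalizer ((P : Subgroup G) : Set G)).subgroupOf K

/-- The two intersections agree. -/
def locEquiv : locK K P ≃* fixK K P where
  toFun c := ⟨⟨((c : Subgroup.normalizer ((P : Subgroup G) : Set G)) : G), c.2⟩,
    Subgroup.mem_subgroupOf.2 (c : Subgroup.normalizer ((P : Subgroup G) : Set G)).2⟩
  invFun c := ⟨⟨((c : K) : G), c.2⟩, Subgroup.mem_subgroupOf.2 (c : K).2⟩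
  left_inv _ := rfl
  right_inv _ := rfl
  map_mul' _ _ := rfl

/-- Restriction to the local subgroup. -/
def resLoc (φ : K → ℂ) : locK K P → ℂ := fun c => φ (locEquiv K P c : K)

variable {K P}

theorem resLoc_conjChar (φ : K → ℂ) (n : Subgroup.normalizer ((P : Subgroup G) : Set G)) :
    resLoc K P (conjChar K (n : G) φ) = conjChar (locK K P) n (resLoc K P φ) := rfl

/-- The action of the Sylow subgroup on `K`. -/
noncomputable def actK (K : Subgroup G) [K.Normal] (P : Sylow p G) : (P : Subgroup G) →* MulAut K :=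
  MulAut.conjNormal.comp (P : Subgroup G).subtype

theorem inv_actK_iff (θ : K → ℂ) :
    Glauberman.Inv (actK K P) θ ↔ (P : Subgroup G) ≤ inertia K θ := by
  constructor
  · intro h x hx
    rw [mem_inertia]
    funext k
    refine Eq.trans (congrArg θ (Subtype.ext ?_)) (h ⟨x, hx⟩ k)
    simp [actK, MulAut.conjNormal_apply]
  · intro h x k
    refine Eq.trans (congrArg θ (Subtype.ext ?_)) (congrFun ((mem_inertia K).1 (h x.2)) k)
    simp [actK, MulAut.conjNormal_apply]

theorem setup_actK (hQ : ((P : Subgroup G).subgroupOf K).Normal) :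
    Glauberman.Setup (actK K P) p ((P : Subgroup G).subgroupOf K) (fixK K P) where
  pgroupP := P.isPGroup'
  normal := hQ
  pgroupQ := P.isPGroup'.comap_of_injective K.subtype K.subtype_injective
  index h := P.not_dvd_index (h.trans (by
    show (P : Subgroup G).relIndex K ∣ _
    rw [← Subgroup.relIndex_top_right (P : Subgroup G)]
    exact relIndex_dvd_of_normalized (H := ⊤) le_top le_top
      (fun g _ => by rw [Subgroup.normalizer_eq_top]; exact Subgroup.mem_top g)))
  mem k := by
    constructor
    · intro hk x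
      rw [Subgroup.mem_subgroupOf]
      have h1 : (k : G) * (x : G)⁻¹ * (k : G)⁻¹ ∈ (P : Subgroup G) :=
        (Subgroup.mem_normalizer_iff.1 (Subgroup.mem_subgroupOf.1 hk) _).1 (inv_mem x.2)
      have h2 := (P : Subgroup G).mul_mem x.2 h1
      simpa [actK, MulAut.conjNormal_apply, mul_assoc] using h2
    · intro h
      have hfwd : ∀ x ∈ (P : Subgroup G), (k : G) * x * (k : G)⁻¹ ∈ (P : Subgroup G) := by
        intro x hx
        have h1 := Subgroup.mem_subgroupOf.1 (h ⟨x⁻¹, inv_mem hx⟩)
        have h2 : x⁻¹ * (k : G) * x * (k : G)⁻¹ ∈ (P : Subgroup G) := by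
          simpa [actK, MulAut.conjNormal_apply] using h1
        have h3 := (P : Subgroup G).mul_mem hx h2
        simpa [mul_assoc] using h3
      have hmap : (P : Subgroup G).map (MulAut.conj (k : G)).toMonoidHom = (P : Subgroup G) := by
        refine Subgroup.eq_of_le_of_card_ge ?_ (le_of_eq ?_)
        · rintro _ ⟨x, hx, rfl⟩
          exact hfwd x hx
        · exact Nat.card_congr (Subgroup.equivMapOfInjective _ _
            (MulAut.conj (k : G)).injective).toEquiv
      refine Subgroup.mem_subgroupOf.2 (Subgroup.mem_normalizer_iff.2 fun x => ⟨hfwd x, fun hx => ?_⟩)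
      rw [← hmap] at hx
      obtain ⟨y, hy, he⟩ := hx
      have : y = x := (MulAut.conj (k : G)).injective he
      exact this ▸ hy

/-- **The correspondence on real invariant characters.** -/
theorem exists_real_corr (hQ : ((P : Subgroup G).subgroupOf K).Normal) :
    ∃ f : {θ : IrrCharacter K //
        (∀ k, ((θ : K → ℂ) k).im = 0) ∧ (P : Subgroup G) ≤ inertia K (θ : K → ℂ)} →
      {η : IrrCharacter (locK K P) // (∀ c, ((η : locK K P → ℂ) c).im = 0) ∧
        (P : Subgroup G).subgroupOf (Subgroup.normalizer ((P : Subgroup G) : Set G)) ≤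
          inertia (locK K P) (η : locK K P → ℂ)},
      Function.Bijective f ∧
      (∀ θ, ((charDegree ((f θ).1 : locK K P → ℂ) : ZMod p) = (charDegree (θ.1 : K → ℂ) : ZMod p) ∨
        (charDegree ((f θ).1 : locK K P → ℂ) : ZMod p) = -(charDegree (θ.1 : K → ℂ) : ZMod p))) ∧
      ∀ (n : Subgroup.normalizer ((P : Subgroup G) : Set G)) θ θ',
        conjChar K (n : G) (θ.1 : K → ℂ) = (θ'.1 : K → ℂ) →
          conjChar (locK K P) n ((f θ).1 : locK K P → ℂ) = ((f θ').1 : locK K P → ℂ) := by
  classical
  have S := setup_actK (K := K) (P := P) hQ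
  haveI := Fintype.ofFinite G
  haveI := Fintype.ofFinite (fixK K P)
  haveI := Fintype.ofFinite (locK K P)
  set e := locEquiv K P with he
  let tr : IrrCharacter (fixK K P) → IrrCharacter (locK K P) := fun η =>
    ⟨fun c => (η : fixK K P → ℂ) (e c), isIrrCharacter_comp η.2 e.toMonoidHom e.surjective⟩
  let rt : IrrCharacter (locK K P) → IrrCharacter (fixK K P) := fun η =>
    ⟨fun c => (η : locK K P → ℂ) (e.symm c), isIrrCharacter_comp η.2 e.symm.toMonoidHom e.symm.surjective⟩
  have hrt : ∀ η, tr (rt η) = η := fun η => Subtype.ext (funext fun c => by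
    show (η : locK K P → ℂ) (e.symm (e c)) = _; rw [e.symm_apply_apply])
  -- multiplicities on the local side
  have hmult : ∀ (θ : IrrCharacter K) (η : IrrCharacter (fixK K P)),
      classInner (resLoc K P (θ : K → ℂ)) (tr η : locK K P → ℂ) = (Glauberman.mult θ η : ℂ) := by
    intro θ η
    rw [← Glauberman.mult_spec]
    simp only [classInner, resLoc, tr, ← he]
    rw [Nat.card_congr e.toEquiv]
    congr 1
    exact Fintype.sum_equiv e.toEquiv _ _ fun c => rfl
  have hinv : ∀ η : IrrCharacter (fixK K P), Glauberman.Inv S.autC (η : fixK K P → ℂ) ↔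
      (P : Subgroup G).subgroupOf (Subgroup.normalizer ((P : Subgroup G) : Set G)) ≤
        inertia (locK K P) (tr η : locK K P → ℂ) := by
    intro η
    constructor
    · intro h x hx
      rw [mem_inertia]
      funext c
      refine Eq.trans (congrArg (η : fixK K P → ℂ) (Subtype.ext (Subtype.ext ?_)))
        (h ⟨(x : G), Subgroup.mem_subgroupOf.1 hx⟩ (e c))
      show ((x : G) * ((c : Subgroup.normalizer ((P : Subgroup G) : Set G)) : G) * (x : G)⁻¹) =
        ((MulAut.conjNormal (x : G) (e c : K) : K) : G)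
      rw [MulAut.conjNormal_apply]
      rfl
    · intro h x c
      have h1 := congrFun ((mem_inertia _).1 (h (x := ⟨(x : G), Subgroup.le_normalizer x.2⟩)
        (Subgroup.mem_subgroupOf.2 x.2))) (e.symm c)
      rw [conjChar_apply] at h1
      refine Eq.trans ?_ (h1.trans (congrArg (η : fixK K P → ℂ) (e.apply_symm_apply c)))
      refine congrArg (η : fixK K P → ℂ) (Subtype.ext (Subtype.ext ?_))
      show ((MulAut.conjNormal (x : G) (c : K) : K) : G) = (x : G) * ((c : K) : G) * (x : G)⁻¹
      rw [MulAut.conjNormal_apply]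
  obtain ⟨f₀, hf₀, hspec⟩ := S.exists_bijective
  have huniq : ∀ (χ : {χ : IrrCharacter K // Glauberman.Inv (actK K P) (χ : K → ℂ)})
      (η : IrrCharacter (locK K P)), (P : Subgroup G).subgroupOf
        (Subgroup.normalizer ((P : Subgroup G) : Set G)) ≤ inertia (locK K P) (η : locK K P → ℂ) →
      ∀ m : ℕ, classInner (resLoc K P (χ.1 : K → ℂ)) (η : locK K P → ℂ) = (m : ℂ) →
        (m : ZMod p) ≠ 0 → η = tr (f₀ χ).1 := by
    intro χ η hη m hm hne
    have hηi : Glauberman.Inv S.autC (rt η : fixK K P → ℂ) := (hinv _).2 (by rw [hrt]; exact hη)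
    have h1 : (⟨rt η, hηi⟩ : {ξ : IrrCharacter (fixK K P) // Glauberman.Inv S.autC (ξ : fixK K P → ℂ)}) =
        f₀ χ := by
      by_contra hne'
      have h2 := (hspec χ).2.1 _ hne'
      have h3 := hmult χ.1 (rt η)
      rw [hrt, hm, Nat.cast_inj] at h3
      exact hne (by rw [h3]; exact h2)
    rw [← h1, hrt]
  have hne0 : ∀ χ, (Glauberman.mult χ.1 (f₀ χ).1 : ZMod p) ≠ 0 := by
    intro χ h0
    rcases (hspec χ).1 with h | h <;> rw [h0] at h
    · exact zero_ne_one h
    · exact neg_ne_zero.mpr (one_ne_zero (α := ZMod p)) h.symm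
  -- complex conjugation
  have hconj : ∀ χ χ' : {χ : IrrCharacter K // Glauberman.Inv (actK K P) (χ : K → ℂ)},
      (∀ k, (χ'.1 : K → ℂ) k = conj ((χ.1 : K → ℂ) k)) →
      ∀ c, (tr (f₀ χ').1 : locK K P → ℂ) c = conj ((tr (f₀ χ).1 : locK K P → ℂ) c) := by
    intro χ χ' h c
    set η : IrrCharacter (locK K P) :=
      ⟨fun d => conj ((tr (f₀ χ).1 : locK K P → ℂ) d), isIrrCharacter_conj (tr (f₀ χ).1).2⟩
    have h1 : η = tr (f₀ χ').1 := by
      refine huniq χ' η ?_ (Glauberman.mult χ.1 (f₀ χ).1) ?_ (hne0 χ)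
      · intro x hx
        rw [mem_inertia]
        funext d
        exact congrArg conj (congrFun ((mem_inertia _).1 ((hinv _).1 (f₀ χ).2 hx)) d)
      · rw [← Complex.conj_natCast, ← hmult]
        simp [classInner, resLoc, h, η, map_sum]
    rw [← h1]
  let toA : {θ : IrrCharacter K //
      (∀ k, ((θ : K → ℂ) k).im = 0) ∧ (P : Subgroup G) ≤ inertia K (θ : K → ℂ)} →
      {χ : IrrCharacter K // Glauberman.Inv (actK K P) (χ : K → ℂ)} := fun θ =>
    ⟨θ.1, (inv_actK_iff _).2 θ.2.2⟩
  refine ⟨fun θ => ⟨tr (f₀ (toA θ)).1, fun c => ?_, (hinv _).1 (f₀ (toA θ)).2⟩, ⟨?_, ?_⟩,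
    fun θ => ?_, fun n θ θ' h => ?_⟩
  · refine Complex.conj_eq_iff_im.1 ?_
    exact (hconj (toA θ) (toA θ) (fun k => (Complex.conj_eq_iff_im.2 (θ.2.1 k)).symm) c).symm
  · intro θ θ' h
    have h1 : tr (f₀ (toA θ)).1 = tr (f₀ (toA θ')).1 := congrArg Subtype.val h
    have htrinj : Function.Injective tr := fun a b hab => Subtype.ext (funext fun c => by
      have := congrArg (fun z : IrrCharacter (locK K P) => (z : locK K P → ℂ) (e.symm c)) hab
      simpa [tr] using this)
    have h2 := hf₀.1 (Subtype.ext (htrinj h1))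
    exact Subtype.ext (congrArg (fun z => z.1) h2)
  · rintro ⟨η, hηr, hηP⟩
    obtain ⟨χ, hχ⟩ := hf₀.2 ⟨rt η, (hinv _).2 (by rw [hrt]; exact hηP)⟩
    have hχη : tr (f₀ χ).1 = η := by rw [hχ]; exact hrt η
    let χ' : {χ : IrrCharacter K // Glauberman.Inv (actK K P) (χ : K → ℂ)} :=
      ⟨⟨fun k => conj ((χ.1 : K → ℂ) k), isIrrCharacter_conj χ.1.2⟩,
        fun x k => congrArg conj (χ.2 x k)⟩
    have h1 : f₀ χ' = f₀ χ := by
      have h2 : tr (f₀ χ').1 = η := Subtype.ext (funext fun c => by
        rw [hconj χ χ' (fun k => rfl) c, hχη]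
        exact Complex.conj_eq_iff_im.2 (hηr c))
      refine Subtype.ext (Subtype.ext (funext fun c => ?_))
      have := congrArg (fun z : IrrCharacter (locK K P) => (z : locK K P → ℂ) (e.symm c))
        (h2.trans hχη.symm)
      simpa [tr] using this
    have h3 := hf₀.1 h1
    have hreal : ∀ k, ((χ.1 : K → ℂ) k).im = 0 := fun k => Complex.conj_eq_iff_im.1
      (congrFun (congrArg (fun z => (z.1 : K → ℂ)) h3) k)
    exact ⟨⟨χ.1, hreal, (inv_actK_iff _).1 χ.2⟩, Subtype.ext hχη⟩
  · have hd : charDegree (tr (f₀ (toA θ)).1 : locK K P → ℂ) =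
        charDegree ((f₀ (toA θ)).1 : fixK K P → ℂ) := by
      refine charDegree_eq_of_apply_one ?_
      show ((f₀ (toA θ)).1 : fixK K P → ℂ) (e 1) = _
      rw [map_one, apply_one_eq_charDegree (isCharacter_of_isIrr (f₀ (toA θ)).1.2)]
    simp only [hd]
    exact (hspec (toA θ)).2.2
  · set η : IrrCharacter (locK K P) := conjIrr (locK K P) n (tr (f₀ (toA θ)).1)
    have h1 : η = tr (f₀ (toA θ')).1 := by
      refine huniq (toA θ') η ?_ (Glauberman.mult θ.1 (f₀ (toA θ)).1) ?_ (hne0 (toA θ))
      · intro x hx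
        rw [mem_inertia]
        show conjChar (locK K P) x (conjChar (locK K P) n (tr (f₀ (toA θ)).1 : locK K P → ℂ)) =
          conjChar (locK K P) n (tr (f₀ (toA θ)).1 : locK K P → ℂ)
        haveI := (Subgroup.normal_in_normalizer (H := (P : Subgroup G)))
        have hx' : n * x * n⁻¹ ∈
            (P : Subgroup G).subgroupOf (Subgroup.normalizer ((P : Subgroup G) : Set G)) :=
          Subgroup.Normal.conj_mem inferInstance x hx n
        rw [← conjChar_mul, show n * x = (n * x * n⁻¹) * n by group, conjChar_mul,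
          (mem_inertia _).1 ((hinv _).1 (f₀ (toA θ)).2 hx')]
      · show classInner (resLoc K P (θ'.1 : K → ℂ)) (conjChar (locK K P) n _) = _
        rw [← h, resLoc_conjChar, classInner_conjChar]
        exact hmult θ.1 _
    exact congrArg Subtype.val h1

end Cfsg.Agent.Lib.CharRealPrime
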