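import Cfsg.Agent.Lib.CharRealPrime.Tools
import Mathlib.Data.Nat.ChineseRemainder

/-!
# A normal Sylow subgroup over the subgroup generated by the `2`-elements

If every real irreducible character has degree prime to `p` and the subgroup generated by the
`p`-elements is solvable, then a normal subgroup containing all `2`-elements with `p`-power index
over them has a normal Sylow `p`-subgroup.
-/

set_option autoImplicit false
set_option linter.unusedSectionVars false
set_option linter.style.haveILetI false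

open scoped ComplexConjugate

namespace Cfsg.Agent.Lib.CharRealPrime

open Cfsg Cfsg.Agent.Lib Cfsg.Agent.Lib.Char
open Cfsg.Agent.Lib.CharRealSolvable (homFun isIrr_homFun)

universe u

/-- The hypothesis. -/
def RealPrimeTo (G : Type u) [Group G] [Finite G] (p : ℕ) : Prop :=
  Group.IsSolvable (elemClosure G p) ∧
    ∀ χ : IrrCharacter G, (∀ g : G, ((χ : G → ℂ) g).im = 0) → ¬ p ∣ charDegree (χ : G → ℂ)

theorem RealPrimeTo.quotient {G : Type u} [Group G] [Finite G] {p : ℕ} [hp : Fact p.Prime]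
    (h : RealPrimeTo G p) (V : Subgroup G) [V.Normal] : RealPrimeTo (G ⧸ V) p := by
  set π := QuotientGroup.mk' V
  have hs : Function.Surjective π := QuotientGroup.mk'_surjective V
  refine ⟨?_, fun η hr hd => ?_⟩
  · rw [← map_elemClosure π hs hp.out]
    haveI := h.1
    exact solvable_of_surjective (MonoidHom.subgroupMap_surjective π (elemClosure G p))
  · refine h.2 ⟨fun g => (η : G ⧸ V → ℂ) (π g), isIrrCharacter_comp η.2 π hs⟩ (fun g => hr (π g)) ?_
    show p ∣ charDegree (fun g => (η : G ⧸ V → ℂ) (π g))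
    rwa [charDegree_eq_of_apply_one (n := charDegree (η : G ⧸ V → ℂ))
      (by rw [map_one, apply_one_eq_charDegree (isCharacter_of_isIrr η.2)])]

section

variable {G : Type u} [Group G] [Finite G] {p : ℕ} [hp : Fact p.Prime]

/-- A linear character of a normal subgroup whose inertia group contains no conjugate of `Q` lies
under no real character. -/
theorem no_real_over [Fintype G] (h : RealPrimeTo G p) {V : Subgroup G} [V.Normal] [Fintype V]
    (Qg : Subgroup G) (hQ : IsPGroup p Qg)
    (hfix : ∀ l : V →* ℂˣ, (∀ q ∈ Qg, ∀ v : V,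
      l ⟨q * v * q⁻¹, (inferInstance : V.Normal).conj_mem v v.2 q⟩ = l v) → l = 1)
    (l : V →* ℂˣ) (hl : l ≠ 1) (χ : IrrCharacter G) (hr : ∀ g, ((χ : G → ℂ) g).im = 0) :
    classInner (fun v : V => (χ : G → ℂ) v) (homFun l) = 0 := by
  by_contra hne
  set T := inertia V (homFun l) with hT
  obtain ⟨a, ha⟩ := classInner_natCast (isCharacter_restrict (isCharacter_of_isIrr χ.2) V)
    (isCharacter_of_isIrr (isIrr_homFun l))
  have h1 := clifford_degree V χ.2 (isIrr_homFun l) hne
  rw [ha, apply_one_eq_charDegree (isCharacter_of_isIrr χ.2), ← hT] at h1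
  have h2 : charDegree (χ : G → ℂ) = a * T.index := by
    have : homFun l 1 = 1 := by simp [homFun]
    rw [this, mul_one] at h1
    exact_mod_cast h1
  have hndvd : ¬ p ∣ T.index := fun hd => h.2 χ hr (h2 ▸ dvd_mul_of_dvd_right hd a)
  obtain ⟨P₀, hP₀⟩ := hQ.exists_le_sylow
  obtain ⟨S⟩ := (inferInstance : Nonempty (Sylow p T))
  have hSi : ¬ p ∣ ((S : Subgroup T).map T.subtype).index := by
    rw [Subgroup.index_map_subtype]
    exact fun hd => (hp.out.dvd_mul.1 hd).elim S.not_dvd_index hndvd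
  set P' : Sylow p G := (S.isPGroup'.map T.subtype).toSylow hSi with hP'
  obtain ⟨g, hg⟩ := MulAction.exists_smul_eq G P₀ P'
  have hconj : ∀ q ∈ Qg, g * q * g⁻¹ ∈ T := by
    intro q hq
    have h1 : g * q * g⁻¹ ∈ (P' : Subgroup G) := by
      rw [← hg, Sylow.coe_subgroup_smul]
      exact ⟨q, hP₀ hq, rfl⟩
    rw [hP', IsPGroup.toSylow_coe] at h1
    exact Subgroup.map_subtype_le _ h1
  let l' : V →* ℂˣ := l.comp (MulAut.conjNormal g).toMonoidHom
  have hl' : l' = 1 := by
    refine hfix l' fun q hq v => ?_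
    have h3 := (conjChar_homFun_eq_iff l _).1 ((mem_inertia V).1 (hconj q hq))
      (MulAut.conjNormal g v)
    refine Eq.trans ?_ h3
    refine congrArg l (Subtype.ext ?_)
    simp [MulAut.conjNormal_apply, mul_assoc]
  refine hl (MonoidHom.ext fun v => ?_)
  have := DFunLike.congr_fun hl' (MulAut.conjNormal g⁻¹ v)
  simp only [l', MonoidHom.comp_apply, MulEquiv.coe_toMonoidHom, MonoidHom.one_apply] at this
  rw [← MulAut.mul_apply, ← map_mul, mul_inv_cancel, map_one] at this
  exact this

end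

set_option maxHeartbeats 800000 in
/-- **The main theorem**, by induction on the order. -/
theorem sylow_map_normal_aux (p : ℕ) [hp : Fact p.Prime] : ∀ (N : ℕ) (G : Type u) [Group G]
    [Finite G], Nat.card G ≤ N → RealPrimeTo G p → ∀ U : Subgroup G, U.Normal → elemClosure G 2 ≤ U →
      (∃ a : ℕ, (elemClosure G 2).relIndex U = p ^ a) → ∀ Q : Sylow p U,
        ((Q : Subgroup U).map U.subtype).Normal := by
  intro N
  induction N with
  | zero =>
    intro G _ _ hN
    exact absurd hN (Nat.not_le.2 Nat.card_pos)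
  | succ N ih =>
    intro G _ _ hN h U hU hKU hUp Q
    classical
    haveI := Fintype.ofFinite G
    set K := elemClosure G 2 with hK
    haveI hKn : K.Normal := elemClosure_normal 2
    set Qg := (Q : Subgroup U).map U.subtype with hQg
    have hQgU : Qg ≤ U := Subgroup.map_subtype_le _
    have hQgp : IsPGroup p Qg := Q.isPGroup'.map U.subtype
    by_cases hK1 : K = ⊥
    · -- `U` is a `p`-group
      obtain ⟨a, ha⟩ := hUp
      rw [hK1, Subgroup.relIndex_bot_left] at ha
      have : Qg = U := le_antisymm hQgU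
        (le_of_normalizes Q (IsPGroup.of_card ha) le_rfl (fun x hx => ?_))
      · rw [this]; exact hU
      · have htop : (Q : Subgroup U) = ⊤ :=
          (Q.is_maximal' ((IsPGroup.of_card ha).to_subgroup ⊤) le_top).symm
        rw [htop, ← MonoidHom.range_eq_map, Subgroup.range_subtype]
        exact Subgroup.le_normalizer hx
    obtain ⟨V, hVn, hV1, hVK, hVmin⟩ := Hall.exists_minimal_normal_le hK1
    have hVU : V ≤ U := hVK.trans hKU
    set π := QuotientGroup.mk' V with hπ
    have hs : Function.Surjective π := QuotientGroup.mk'_surjective V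
    -- the quotient
    have hlt : Nat.card (G ⧸ V) ≤ N := by
      have h1 : 1 < Nat.card V := V.one_lt_card_iff_ne_bot.2 hV1
      have h2 := Subgroup.card_eq_card_quotient_mul_card_subgroup V
      have h3 : 0 < Nat.card (G ⧸ V) := Nat.card_pos
      nlinarith
    have hKmap : K.map π = elemClosure (G ⧸ V) 2 := map_elemClosure π hs Nat.prime_two
    have hUmap : (U.map π).Normal := hU.map π hs
    have hWn0 : (Qg.map π).Normal := by
      let πU : U →* (U.map π : Subgroup (G ⧸ V)) := π.subgroupMap U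
      have hsU : Function.Surjective πU := MonoidHom.subgroupMap_surjective π U
      have h1 := ih (G ⧸ V) hlt (h.quotient V) (U.map π) hUmap
        (hKmap ▸ Subgroup.map_mono hKU) (by
          obtain ⟨a, ha⟩ := hUp
          refine ⟨a, ?_⟩
          rw [← hKmap, ← Subgroup.relIndex_comap, Subgroup.comap_map_eq, hπ, QuotientGroup.ker_mk',
            sup_eq_left.2 hVK, ha])
        (Q.mapSurjective hsU)
      rw [Sylow.coe_mapSurjective, Subgroup.map_map] at h1
      rw [hQg, Subgroup.map_map]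
      convert h1 using 2
      rfl
    set W := V ⊔ Qg with hW
    have hWn : W.Normal := by
      have : W = (Qg.map π).comap π := by
        rw [Subgroup.comap_map_eq, hπ, QuotientGroup.ker_mk', sup_comm, hW]
      rw [this]
      exact hWn0.comap π
    -- it suffices that `V` normalises `Qg`
    by_cases hVN : V ≤ Subgroup.normalizer (Qg : Set G)
    · refine ⟨fun x hx g => ?_⟩
      let R := Qg.map (MulAut.conj g).toMonoidHom
      have hRW : R ≤ W := by
        rintro _ ⟨y, hy, rfl⟩
        exact hWn.conj_mem y (Subgroup.mem_sup_right hy) g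
      have hR : R ≤ Qg := le_of_normalizes Q (hQgp.map _)
        (hRW.trans (sup_le hVU hQgU))
        (hRW.trans (sup_le hVN Subgroup.le_normalizer))
      exact hR ⟨x, hx, rfl⟩
    exfalso
    -- `V` is not a `p`-group
    have hVnp : ¬ IsPGroup p V := by
      intro hVp
      have hWp : IsPGroup p W := hVp.to_sup_of_normal_left hQgp
      refine hVN ((le_sup_left : V ≤ W).trans (le_trans (b := Qg) ?_ Subgroup.le_normalizer))
      have hle : (Q : Subgroup U) ≤ W.subgroupOf U := fun x hx =>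
        Subgroup.mem_subgroupOf.2 (Subgroup.mem_sup_right (Subgroup.mem_map_of_mem _ hx))
      have heq := Q.is_maximal' (hWp.comap_of_injective U.subtype U.subtype_injective) hle
      intro x hx
      have hxU : x ∈ U := sup_le hVU hQgU hx
      exact ⟨⟨x, hxU⟩, by rw [← heq]; exact hx, rfl⟩
    -- `V` is solvable
    set O := elemClosure G p with hO
    haveI hOn : O.Normal := elemClosure_normal p
    have hQO : Qg ≤ O := fun x hx => by
      obtain ⟨k, hk⟩ := hQgp ⟨x, hx⟩
      obtain ⟨j, -, hj⟩ := (Nat.dvd_prime_pow hp.out).1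
        (orderOf_dvd_of_pow_eq_one (show x ^ p ^ k = 1 from congrArg Subtype.val hk))
      exact Subgroup.subset_closure ⟨j, hj⟩
    have hVO : V ≤ O := by
      rcases hVmin (V ⊓ O) inferInstance inf_le_left with h1 | h1
      · refine absurd ?_ hVN
        intro v hv
        refine Subgroup.centralizer_le_normalizer _ (Subgroup.mem_centralizer_iff.2 fun q hq => ?_)
        have h2 : v * q * v⁻¹ * q⁻¹ ∈ V ⊓ O := by
          refine ⟨?_, O.mul_mem (hOn.conj_mem q (hQO hq) v) (O.inv_mem (hQO hq))⟩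
          rw [mul_assoc, mul_assoc, ← mul_assoc q]
          exact V.mul_mem hv (hVn.conj_mem _ (V.inv_mem hv) q)
        rw [h1, Subgroup.mem_bot, mul_inv_eq_one, mul_inv_eq_iff_eq_mul] at h2
        exact h2.symm
      · exact h1 ▸ inf_le_right
    haveI : Group.IsSolvable V := Coprime.isSolvable_of_le hVO h.1
    obtain ⟨hVc, r, hr, hVr⟩ := Hall.minimal_normal_solvable V hV1 hVmin
    have hcomm : ∀ a ∈ V, ∀ b ∈ V, a * b = b * a := fun a ha b hb =>
      congrArg Subtype.val (hVc.is_comm.comm ⟨a, ha⟩ ⟨b, hb⟩)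
    have hrp : r ≠ p := fun he => hVnp (he ▸ Hall.isPGroup_of_pow_eq_one hVr)
    haveI : Fintype V := Fintype.ofFinite V
    haveI : Fact r.Prime := ⟨hr⟩
    -- Frattini
    set Nq := Subgroup.normalizer (Qg : Set G) with hNq
    have hfr : Nq ⊔ V = ⊤ := by
      refine eq_top_iff.2 fun g _ => ?_
      have hWU : W ≤ U := sup_le hVU hQgU
      let QW : Sylow p W := Q.comapOfInjective (Subgroup.inclusion hWU)
        (Subgroup.inclusion_injective hWU) (fun x hx => by
          refine ⟨⟨(x : G), ?_⟩, Subtype.ext rfl⟩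
          exact Subgroup.mem_sup_right (Subgroup.mem_map_of_mem _ hx))
      have hQW : ((QW : Subgroup W).map W.subtype) = Qg := by
        ext x
        constructor
        · rintro ⟨y, hy, rfl⟩
          exact ⟨Subgroup.inclusion hWU y, hy, rfl⟩
        · rintro ⟨y, hy, rfl⟩
          exact ⟨⟨(y : G), Subgroup.mem_sup_right (Subgroup.mem_map_of_mem _ hy)⟩,
            (show Subgroup.inclusion hWU ⟨(y : G), _⟩ ∈ (Q : Subgroup U) from hy), rfl⟩
      haveI := hWn
      have htop := Sylow.normalizer_sup_eq_top QW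
      rw [hQW] at htop
      have hWle : W ≤ Nq ⊔ V := sup_le le_sup_right (Subgroup.le_normalizer.trans le_sup_left)
      have : (⊤ : Subgroup G) ≤ Nq ⊔ V := htop ▸ sup_le le_sup_left hWle
      exact this (Subgroup.mem_top g)
    have hdec : ∀ g : G, ∃ v ∈ V, ∃ n ∈ Nq, v * n = g := fun g =>
      Subgroup.mem_sup_of_normal_left.1 (by rw [sup_comm, hfr]; exact Subgroup.mem_top g)
    have hQnorm : ∀ {n q : G}, n ∈ Nq → q ∈ Qg → n * q * n⁻¹ ∈ Qg := fun hn hq =>
      (Subgroup.mem_normalizer_iff.1 hn _).1 hq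
    -- the fixed points
    set C := V ⊓ Subgroup.centralizer (Qg : Set G) with hC
    have hCn : C.Normal := by
      refine ⟨fun c hc g => ⟨hVn.conj_mem c hc.1 g, ?_⟩⟩
      obtain ⟨v, hv, n, hn, rfl⟩ := hdec g
      have hcn : n * c * n⁻¹ ∈ V := hVn.conj_mem c hc.1 n
      have e : v * n * c * (v * n)⁻¹ = n * c * n⁻¹ := by
        rw [mul_inv_rev, show v * n * c * (n⁻¹ * v⁻¹) = v * (n * c * n⁻¹) * v⁻¹ by group,
          hcomm v hv _ hcn, mul_inv_cancel_right]
      rw [e]
      refine Subgroup.mem_centralizer_iff.2 fun q hq => ?_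
      have hq' : n⁻¹ * q * n ∈ Qg := by simpa using hQnorm (Nq.inv_mem hn) hq
      have := Subgroup.mem_centralizer_iff.1 hc.2 _ hq'
      calc q * (n * c * n⁻¹) = n * ((n⁻¹ * q * n) * c) * n⁻¹ := by group
        _ = n * (c * (n⁻¹ * q * n)) * n⁻¹ := by rw [this]
        _ = n * c * n⁻¹ * q := by group
    have hCbot : C = ⊥ := (hVmin C hCn inf_le_left).resolve_right fun he =>
      hVN fun v hv => Subgroup.centralizer_le_normalizer _ ((he.symm ▸ hv : v ∈ C).2)
    have hVQ : V ⊓ Qg = ⊥ := by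
      obtain ⟨i, hi⟩ := IsPGroup.iff_card.1 hQgp
      obtain ⟨j, hj⟩ := IsPGroup.iff_card.1 (Hall.isPGroup_of_pow_eq_one (p := r) hVr)
      refine Coprime.inf_eq_bot_of_coprime ?_
      rw [hi, hj]
      exact Nat.Coprime.pow _ _ ((Nat.coprime_primes hr hp.out).2 hrp)
    have hVNq : V ⊓ Nq = ⊥ := by
      refine eq_bot_iff.2 fun v hv => hCbot ▸ ⟨hv.1, Subgroup.mem_centralizer_iff.2 fun q hq => ?_⟩
      have h2 : v * q * v⁻¹ * q⁻¹ ∈ V ⊓ Qg := by
        refine ⟨?_, Qg.mul_mem (hQnorm hv.2 hq) (Qg.inv_mem hq)⟩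
        rw [mul_assoc, mul_assoc, ← mul_assoc q]
        exact V.mul_mem hv.1 (hVn.conj_mem _ (V.inv_mem hv.1) q)
      rw [hVQ, Subgroup.mem_bot, mul_inv_eq_one, mul_inv_eq_iff_eq_mul] at h2
      exact h2.symm
    -- fixed linear characters are trivial
    have hfix : ∀ l : V →* ℂˣ, (∀ q ∈ Qg, ∀ v : V,
        l ⟨q * v * q⁻¹, hVn.conj_mem v v.2 q⟩ = l v) → l = 1 := by
      intro l hl
      set S : Set G := {x | ∃ q ∈ Qg, ∃ v ∈ V, x = q * v * q⁻¹ * v⁻¹} with hS
      have hSV : S ⊆ (V : Set G) := by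
        rintro _ ⟨q, hq, v, hv, rfl⟩
        exact V.mul_mem (hVn.conj_mem v hv q) (V.inv_mem hv)
      set A := Subgroup.closure S with hA
      have hAV : A ≤ V := (Subgroup.closure_le _).2 hSV
      have hAn : A.Normal := by
        refine ⟨fun x hx g => ?_⟩
        obtain ⟨v₀, hv₀, n, hn, rfl⟩ := hdec g
        have h1 : n * x * n⁻¹ ∈ A := by
          induction hx using Subgroup.closure_induction with
          | mem y hy =>
            obtain ⟨q, hq, v, hv, rfl⟩ := hy
            exact Subgroup.subset_closure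
              ⟨n * q * n⁻¹, hQnorm hn hq, n * v * n⁻¹, hVn.conj_mem v hv n, by group⟩
          | one => simp
          | mul a b _ _ ha hb => simpa [mul_assoc] using A.mul_mem ha hb
          | inv a _ ha => simpa [mul_assoc] using A.inv_mem ha
        rw [mul_inv_rev, show v₀ * n * x * (n⁻¹ * v₀⁻¹) = v₀ * (n * x * n⁻¹) * v₀⁻¹ by group,
          hcomm v₀ hv₀ _ (hAV h1), mul_inv_cancel_right]
        exact h1
      have hAtop : A = V := (hVmin A hAn hAV).resolve_left fun he => by
        refine hV1 (eq_bot_iff.2 fun v hv => hCbot ▸ ⟨hv, Subgroup.mem_centralizer_iff.2 fun q hq => ?_⟩)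
        have h2 : q * v * q⁻¹ * v⁻¹ ∈ A := Subgroup.subset_closure ⟨q, hq, v, hv, rfl⟩
        rw [he, Subgroup.mem_bot, mul_inv_eq_one, mul_inv_eq_iff_eq_mul] at h2
        exact h2
      ext v
      have hker : A ≤ l.ker.map V.subtype := by
        refine (Subgroup.closure_le _).2 ?_
        rintro _ ⟨q, hq, w, hw, rfl⟩
        refine ⟨⟨q * w * q⁻¹, hVn.conj_mem w hw q⟩ * ⟨w, hw⟩⁻¹, MonoidHom.mem_ker.2 ?_, rfl⟩
        rw [map_mul, map_inv, hl q hq ⟨w, hw⟩, mul_inv_cancel]
      obtain ⟨v', hv', he⟩ := hker (hAtop.symm ▸ v.2 : (v : G) ∈ A)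
      rw [show v = v' from Subtype.ext he.symm, MonoidHom.mem_ker.1 hv', MonoidHom.one_apply]
    have hnoreal := no_real_over h Qg hQgp hfix
    by_cases hr2 : r = 2
    · subst hr2
      obtain ⟨⟨v, hv⟩, hv1'⟩ := Subgroup.ne_bot_iff_exists_ne_one.1 hV1
      have hv1 : v ≠ 1 := fun e => hv1' (Subtype.ext e)
      obtain ⟨l, hl⟩ := exists_hom_ne_one_of_abelian hcomm
        (x := (⟨v, hv⟩ : V)) (fun e => hv1 (congrArg Subtype.val e))
      set T := inertia V (homFun l) with hT
      have hsq : ∀ w : V, l w * l w = 1 := fun w => by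
        rw [← map_mul, ← map_one l]
        refine congrArg l (Subtype.ext ?_)
        rw [Subgroup.coe_mul, Subgroup.coe_one, ← sq]
        exact hVr w w.2
      have hTle : T ≤ V ⊔ (Nq ⊓ T) := by
        intro g hg
        obtain ⟨w, hw, n, hn, rfl⟩ := hdec g
        refine Subgroup.mul_mem_sup hw ⟨hn, ?_⟩
        have hwT : w ∈ T := le_inertia V (isClassFunction_of_isIrr (isIrr_homFun l)) hw
        simpa using T.mul_mem (T.inv_mem hwT) hg
      have hVT : V ⊔ (Nq ⊓ T) ≤ T :=
        sup_le (le_inertia V (isClassFunction_of_isIrr (isIrr_homFun l))) inf_le_right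
      obtain ⟨χ, hχr, hχ⟩ := exists_real_over_of_complement l (Nq ⊓ T)
        (eq_bot_iff.2 fun x hx => hVNq ▸ ⟨hx.1, hx.2.1⟩) inf_le_right 1
        (fun c hc => by simpa using hc)
        (fun m => by
          refine Eq.trans (congrArg l (Subtype.ext ?_)) (eq_inv_of_mul_eq_one_left (hsq m))
          simp)
        (by rw [le_antisymm hVT hTle, Subgroup.relIndex_self]; exact odd_one)
      exact hχ (hnoreal l (fun e => hl (by rw [e]; rfl)) χ hχr)
    -- `r` is odd
    obtain ⟨j, hj⟩ := IsPGroup.iff_card.1 (Hall.isPGroup_of_pow_eq_one (p := r) hVr)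
    have hrodd : Odd r := hr.odd_of_ne_two hr2
    have hVodd : Odd (Nat.card V) := hj ▸ hrodd.pow
    have hcen : ∀ k ∈ K, ∀ v ∈ V, k * v * k⁻¹ = v := by
      intro k hk
      induction hk using Subgroup.closure_induction with
      | mem t ht =>
        intro v hv
        by_contra hne
        set x : V := ⟨t * v * t⁻¹, hVn.conj_mem v hv t⟩ * ⟨v, hv⟩⁻¹ with hx
        have hx1 : x ≠ 1 := fun e => hne (by
          have := congrArg Subtype.val e
          simpa [hx, mul_inv_eq_one] using this)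
        obtain ⟨l, hl⟩ := exists_hom_ne_one_of_abelian hcomm hx1
        rw [hx, map_mul, map_inv, Ne, mul_inv_eq_one] at hl
        obtain ⟨l', hl', χ, hχr, hχ⟩ := exists_real_over_of_moved hVodd ht l ⟨v, hv⟩ hl
        exact hχ (hnoreal l' hl' χ hχr)
      | one => simp
      | mul a b _ _ ha hb =>
        intro v hv
        rw [mul_inv_rev, show a * b * v * (b⁻¹ * a⁻¹) = a * (b * v * b⁻¹) * a⁻¹ by group, hb v hv,
          ha v hv]
      | inv a _ ha =>
        intro v hv
        rw [inv_inv]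
        have h1 := ha v hv
        conv_lhs => rw [← h1]
        group
    obtain ⟨i, hi⟩ := IsPGroup.iff_card.1 hQgp
    obtain ⟨e, he1, he0⟩ := Nat.chineseRemainder
      (((Nat.coprime_primes hr hp.out).2 hrp).pow_right i) 1 0
    have hve : ∀ v ∈ V, v ^ e = v := by
      intro v hv
      conv_rhs => rw [← pow_one v]
      rw [pow_eq_pow_iff_modEq]
      exact Nat.ModEq.of_dvd (orderOf_dvd_of_pow_eq_one (hVr v hv)) he1
    have hqe : ∀ q ∈ Qg, q ^ e = 1 := by
      intro q hq
      obtain ⟨d, hd⟩ := Nat.modEq_zero_iff_dvd.1 he0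
      have : (⟨q, hq⟩ : Qg) ^ Nat.card Qg = 1 := pow_card_eq_one'
      rw [hi] at this
      rw [hd, pow_mul, show q ^ p ^ i = 1 from congrArg Subtype.val this, one_pow]
    have hform : ∀ x ∈ K, x ∈ W → ∃ v ∈ V, ∃ q ∈ Qg, v * q = x ∧ Commute v q ∧
        (∀ v' ∈ V, Commute v' q) ∧ x ^ e = v := by
      intro x hxK hxW
      obtain ⟨v, hv, q, hq, rfl⟩ := Subgroup.mem_sup_of_normal_left.1 hxW
      have hqK : q ∈ K := by simpa using K.mul_mem (K.inv_mem (hVK hv)) hxK
      have hcq : ∀ v' ∈ V, Commute v' q := fun v' hv' =>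
        (mul_inv_eq_iff_eq_mul.1 (hcen q hqK v' hv')).symm
      exact ⟨v, hv, q, hq, rfl, hcq v hv, hcq,
        by rw [(hcq v hv).mul_pow, hve v hv, hqe q hq, mul_one]⟩
    have hmul : ∀ x y, x ∈ K → x ∈ W → y ∈ K → y ∈ W → (x * y) ^ e = x ^ e * y ^ e := by
      intro x y hx hx' hy hy'
      obtain ⟨v, hv, q, hq, rfl, -, hcq, h1⟩ := hform x hx hx'
      obtain ⟨v', hv', q', hq', rfl, -, hcq', h2⟩ := hform y hy hy'
      rw [h1, h2, show v * q * (v' * q') = (v * v') * (q * q') by
        rw [mul_assoc, mul_assoc, ← mul_assoc q, ← (hcq v' hv').eq, mul_assoc]]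
      have hc : Commute (v * v') (q * q') := by
        refine Commute.mul_right (hcq _ (V.mul_mem hv hv')) (hcq' _ (V.mul_mem hv hv'))
      rw [hc.mul_pow, hve _ (V.mul_mem hv hv'), hqe _ (Qg.mul_mem hq hq'), mul_one]
    have hcomW : ∀ k ∈ K, ∀ q ∈ Qg, k * q * k⁻¹ * q⁻¹ ∈ K ∧ k * q * k⁻¹ * q⁻¹ ∈ W := by
      intro k hk q hq
      refine ⟨?_, W.mul_mem (hWn.conj_mem q (Subgroup.mem_sup_right hq) k)
        (W.inv_mem (Subgroup.mem_sup_right hq))⟩
      rw [mul_assoc, mul_assoc, ← mul_assoc q]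
      exact K.mul_mem hk (hKn.conj_mem _ (K.inv_mem hk) q)
    -- the map `k ↦ [k, q] ^ e` vanishes
    have hzero : ∀ q ∈ Qg, ∀ k ∈ K, (k * q * k⁻¹ * q⁻¹) ^ e = 1 := by
      intro q hq
      have hval : ∀ k ∈ K, (k * q * k⁻¹ * q⁻¹) ^ e ∈ V := by
        intro k hk
        obtain ⟨v, hv, q', -, -, -, -, h1⟩ := hform _ (hcomW k hk q hq).1 (hcomW k hk q hq).2
        exact h1 ▸ hv
      have hadd : ∀ a ∈ K, ∀ b ∈ K, (a * b * q * (a * b)⁻¹ * q⁻¹) ^ e =
          (b * q * b⁻¹ * q⁻¹) ^ e * (a * q * a⁻¹ * q⁻¹) ^ e := by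
        intro a ha b hb
        have e1 : a * b * q * (a * b)⁻¹ * q⁻¹ =
            (a * (b * q * b⁻¹ * q⁻¹) * a⁻¹) * (a * q * a⁻¹ * q⁻¹) := by group
        rw [e1, hmul _ _ (hKn.conj_mem _ (hcomW b hb q hq).1 a) (hWn.conj_mem _ (hcomW b hb q hq).2 a)
          (hcomW a ha q hq).1 (hcomW a ha q hq).2, conj_pow, hcen a ha _ (hval b hb)]
      intro k hk
      induction hk using Subgroup.closure_induction with
      | mem t ht =>
        obtain ⟨d, hd⟩ := ht
        have htK : t ∈ K := Subgroup.subset_closure ⟨d, hd⟩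
        set w := (t * q * t⁻¹ * q⁻¹) ^ e with hw
        have hpow : ∀ n : ℕ, (t ^ n * q * (t ^ n)⁻¹ * q⁻¹) ^ e = w ^ n := by
          intro n
          induction n with
          | zero => simp
          | succ n ihn => rw [pow_succ, hadd _ (K.pow_mem htK n) _ htK, ihn, ← hw, pow_succ']
        have h1 := hpow (orderOf t)
        rw [pow_orderOf_eq_one, hd] at h1
        have h2 : w ^ 2 ^ d = 1 := by rw [← h1]; simp
        have h3 : w ^ r = 1 := hVr w (hval t htK)
        have h4 := pow_gcd_eq_one.mpr ⟨h2, h3⟩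
        rwa [((Nat.coprime_two_left.2 hrodd).pow_left d).gcd_eq_one, pow_one] at h4
      | one => simp
      | mul a b ha hb iha ihb => rw [hadd a ha b hb, iha, ihb, one_mul]
      | inv a ha iha =>
        have h1 := hadd a ha a⁻¹ (K.inv_mem ha)
        rw [iha, mul_one, mul_inv_cancel] at h1
        rw [← h1]
        simp
    refine hV1 (eq_bot_iff.2 fun v hv => hCbot ▸ ⟨hv, Subgroup.mem_centralizer_iff.2 fun q hq => ?_⟩)
    have h1 := hzero q hq v (hVK hv)
    have h2 : v * q * v⁻¹ * q⁻¹ ∈ V := by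
      rw [mul_assoc, mul_assoc, ← mul_assoc q]
      exact V.mul_mem hv (hVn.conj_mem _ (V.inv_mem hv) q)
    rw [hve _ h2, mul_inv_eq_one, mul_inv_eq_iff_eq_mul] at h1
    exact h1.symm

/-- The Sylow `p`-subgroups are normal in `U`. -/
theorem sylow_normal {G : Type u} [Group G] [Finite G] {p : ℕ} [Fact p.Prime] (h : RealPrimeTo G p)
    (U : Subgroup G) (hU : U.Normal) (hKU : elemClosure G 2 ≤ U)
    (hUp : ∃ a : ℕ, (elemClosure G 2).relIndex U = p ^ a) (Q : Sylow p U) :
    (Q : Subgroup U).Normal := by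
  have h1 := sylow_map_normal_aux p (Nat.card G) G le_rfl h U hU hKU hUp Q
  rw [← Subgroup.comap_map_eq_self_of_injective U.subtype_injective (Q : Subgroup U)]
  exact h1.comap U.subtype

end Cfsg.Agent.Lib.CharRealPrime
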