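import Cfsg.Agent.Lib.CharRealPrime.Basic
import Cfsg.Agent.Lib.Hall.Solvable
import Cfsg.Agent.Lib.PGroupFrattini
import Mathlib.GroupTheory.FiniteAbelian.Duality
import Mathlib.Analysis.Complex.Polynomial.Basic
import Mathlib.RingTheory.RootsOfUnity.AlgebraicallyClosed

/-!
# Tools for real characters of degree prime to `p`
-/

set_option autoImplicit false
set_option linter.unusedSectionVars false
set_option linter.style.haveILetI false

open scoped ComplexConjugate

namespace Cfsg.Agent.Lib.CharRealPrime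

open Cfsg Cfsg.Agent.Lib Cfsg.Agent.Lib.Char
open Cfsg.Agent.Lib.CharRealSolvable (homFun isIrr_homFun)

universe u v

variable {G : Type u} [Group G] [Finite G]

/-- The subgroup generated by the `q`-elements. -/
def elemClosure (G : Type*) [Group G] (q : ℕ) : Subgroup G :=
  Subgroup.closure {g : G | ∃ k : ℕ, orderOf g = q ^ k}

theorem elemClosure_normal (q : ℕ) : (elemClosure G q).Normal :=
  ⟨fun x hx g => by
    induction hx using Subgroup.closure_induction with
    | mem y hy =>
      obtain ⟨k, hk⟩ := hy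
      exact Subgroup.subset_closure ⟨k, by
        rw [← hk, show g * y * g⁻¹ = MulAut.conj g y from rfl, MulEquiv.orderOf_eq]⟩
    | one => simp
    | mul a b _ _ ha hb => simpa [mul_assoc] using (elemClosure G q).mul_mem ha hb
    | inv a _ ha => simpa [mul_assoc] using (elemClosure G q).inv_mem ha⟩

/-- `q`-elements lift along surjections. -/
theorem exists_lift_elem {B : Type v} [Group B] (f : G →* B) (hf : Function.Surjective f) {q : ℕ}
    (hq : q.Prime) {b : B} (hb : ∃ k, orderOf b = q ^ k) :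
    ∃ a : G, (∃ k, orderOf a = q ^ k) ∧ f a = b := by
  obtain ⟨k, hk⟩ := hb
  obtain ⟨y, rfl⟩ := hf b
  set r := orderOf y with hr
  have hr0 : r ≠ 0 := (orderOf_pos y).ne'
  set s := r.factorization q
  set m := r / q ^ s with hm
  have hms : q ^ s * m = r := Nat.ordProj_mul_ordCompl_eq_self r q
  have hcop : (q ^ k).Coprime m := (Nat.coprime_ordCompl hq hr0).pow_left k
  obtain ⟨c, hc1, hc0⟩ := Nat.chineseRemainder hcop 1 0
  refine ⟨y ^ c, ?_, ?_⟩
  · obtain ⟨d, hd⟩ := Nat.modEq_zero_iff_dvd.1 hc0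
    have h1 : (y ^ c) ^ q ^ s = 1 := by
      rw [← pow_mul, hd, show m * d * q ^ s = (q ^ s * m) * d by ring, hms, pow_mul, hr,
        pow_orderOf_eq_one, one_pow]
    obtain ⟨j, -, hj⟩ := (Nat.dvd_prime_pow hq).1 (orderOf_dvd_of_pow_eq_one h1)
    exact ⟨j, hj⟩
  · rw [map_pow]
    conv_rhs => rw [← pow_one (f y)]
    rw [pow_eq_pow_iff_modEq, hk]
    exact hc1

theorem map_elemClosure {B : Type v} [Group B] (f : G →* B) (hf : Function.Surjective f) {q : ℕ}
    (hq : q.Prime) : (elemClosure G q).map f = elemClosure B q := by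
  refine le_antisymm ?_ ((Subgroup.closure_le _).2 fun b hb => ?_)
  · rw [elemClosure, MonoidHom.map_closure, Subgroup.closure_le]
    rintro _ ⟨g, ⟨k, hk⟩, rfl⟩
    obtain ⟨j, -, hj⟩ := (Nat.dvd_prime_pow hq).1 (hk ▸ orderOf_map_dvd f g)
    exact Subgroup.subset_closure ⟨j, hj⟩
  · obtain ⟨a, ha, rfl⟩ := exists_lift_elem f hf hq hb
    exact ⟨a, Subgroup.subset_closure ha, rfl⟩

/-- Homomorphisms to `ℂˣ` detect the elements outside the derived subgroup. -/
theorem exists_hom_ne_one {H : Type u} [Group H] [Finite H] {x : H} (hx : x ∉ commutator H) :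
    ∃ l : H →* ℂˣ, l x ≠ 1 := by
  have : Finite (Abelianization H) := Finite.of_surjective _ Quotient.mk''_surjective
  have hne : Abelianization.of x ≠ 1 := fun h => hx (by
    rwa [← Abelianization.ker_of, MonoidHom.mem_ker])
  obtain ⟨φ, hφ⟩ := CommGroup.exists_apply_ne_one_of_hasEnoughRootsOfUnity (Abelianization H) ℂ hne
  exact ⟨φ.comp Abelianization.of, hφ⟩

/-- A nontrivial element of an abelian subgroup is detected. -/
theorem exists_hom_ne_one_of_abelian {V : Subgroup G} (hc : ∀ a ∈ V, ∀ b ∈ V, a * b = b * a)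
    {x : V} (hx : x ≠ 1) : ∃ l : V →* ℂˣ, l x ≠ 1 := by
  refine exists_hom_ne_one fun h => hx ?_
  have h0 : commutator V = ⊥ := by
    rw [commutator_def, Subgroup.commutator_eq_bot_iff_le_centralizer]
    intro a _
    rw [Subgroup.mem_centralizer_iff]
    exact fun b _ => Subtype.ext (hc _ b.2 _ a.2)
  rwa [h0, Subgroup.mem_bot] at h

/-- A `2`-element that moves a linear character of a normal subgroup of odd order gives a nontrivial
linear character under a real irreducible character. -/
theorem exists_real_over_of_moved [Fintype G] {M : Subgroup G} [M.Normal] [Fintype M]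
    (hM : Odd (Nat.card M)) {t : G} (ht : ∃ k, orderOf t = 2 ^ k) (l₀ : M →* ℂˣ) (m₀ : M)
    (hne : l₀ ⟨t * m₀ * t⁻¹, (inferInstance : M.Normal).conj_mem m₀ m₀.2 t⟩ ≠ l₀ m₀) :
    ∃ l : M →* ℂˣ, l ≠ 1 ∧ ∃ χ : IrrCharacter G, (∀ g, ((χ : G → ℂ) g).im = 0) ∧
      classInner (fun m : M => (χ : G → ℂ) m) (homFun l) ≠ 0 := by
  obtain ⟨g, l, hg, hl, hgl⟩ := exists_inverted t ht l₀ m₀ hne
  exact ⟨l, hl, exists_real_over_of_inverted hM l g hg hgl⟩

/-- A character of degree prime to `p` of a `p`-group has a linear constituent. -/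
theorem exists_linear_constituent {P : Type u} [Group P] [Fintype P] {p : ℕ} [hp : Fact p.Prime]
    (hP : IsPGroup p P) {φ : P → ℂ} (hφ : IsCharacter P φ) (ho : ¬ p ∣ charDegree φ) :
    ∃ μ : P →* ℂˣ, classInner φ (fun x => (μ x : ℂ)) ≠ 0 := by
  classical
  obtain ⟨n, hn⟩ := isCharacter_eq_sum hφ
  have hdeg : charDegree φ = ∑ χ : IrrCharacter P, n χ * charDegree (χ : P → ℂ) := by
    refine charDegree_eq_of_apply_one ?_
    rw [hn, Finset.sum_apply, Nat.cast_sum]
    exact Finset.sum_congr rfl fun χ _ => by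
      rw [Pi.smul_apply, apply_one_eq_charDegree (isCharacter_of_isIrr χ.2), Nat.cast_mul, smul_eq_mul]
  obtain ⟨χ, hχ⟩ : ∃ χ : IrrCharacter P, ¬ p ∣ n χ * charDegree (χ : P → ℂ) := by
    by_contra! hc
    exact ho (hdeg ▸ Finset.dvd_sum fun χ _ => hc χ)
  obtain ⟨j, hj⟩ := IsPGroup.iff_card.1 hP
  obtain ⟨i, -, hi⟩ := (Nat.dvd_prime_pow hp.out).1 (hj ▸ charDegree_dvd_card χ.2)
  have h1 : (χ : P → ℂ) 1 = 1 := by
    rw [apply_one_eq_charDegree (isCharacter_of_isIrr χ.2), hi]
    rcases Nat.eq_zero_or_pos i with rfl | hi0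
    · simp
    · exact absurd (dvd_mul_of_dvd_right (hi ▸ dvd_pow_self p hi0.ne') _) hχ
  obtain ⟨μ, hμ⟩ := exists_hom_of_degree_one (isCharacter_of_isIrr χ.2) h1
  refine ⟨μ, ?_⟩
  rw [← funext hμ, hn, classInner_sum_left, Finset.sum_eq_single χ]
  · rw [classInner_smul_left, classInner_irr_self χ.2, mul_one, Nat.cast_ne_zero]
    exact fun h0 => hχ (by rw [h0, zero_mul]; exact dvd_zero p)
  · intro γ _ hγ
    rw [classInner_smul_left, classInner_irrCharacter, if_neg hγ, mul_zero]
  · simp

/-- If `M ≤ P'` and an irreducible character has degree prime to `p`, no nontrivial linear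
character of `M` lies under it. -/
theorem eq_one_of_le_commutator [Fintype G] {M : Subgroup G} [M.Normal] [Fintype M] {p : ℕ}
    [Fact p.Prime] (P : Subgroup G) (hP : IsPGroup p P) (hMP : M ≤ ⁅P, P⁆) (χ : IrrCharacter G)
    (hdeg : ¬ p ∣ charDegree (χ : G → ℂ)) (l : M →* ℂˣ)
    (hl : classInner (fun m : M => (χ : G → ℂ) m) (homFun l) ≠ 0) : l = 1 := by
  classical
  haveI := Fintype.ofFinite P
  have hres := isCharacter_restrict (isCharacter_of_isIrr χ.2) P
  have hd : charDegree (fun x : P => (χ : G → ℂ) x) = charDegree (χ : G → ℂ) :=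
    charDegree_eq_of_apply_one (apply_one_eq_charDegree (isCharacter_of_isIrr χ.2))
  obtain ⟨μ, hμ⟩ := exists_linear_constituent hP hres (by rw [hd]; exact hdeg)
  have hMP' : M ≤ P := hMP.trans ((Subgroup.commutator_le).2 fun a ha b hb => by
    rw [commutatorElement_def]
    exact P.mul_mem (P.mul_mem (P.mul_mem ha hb) (P.inv_mem ha)) (P.inv_mem hb))
  have hμ1 : ∀ m : M, μ ⟨(m : G), hMP' m.2⟩ = 1 := by
    intro m
    have h1 : (⟨(m : G), hMP' m.2⟩ : P) ∈ commutator P := by
      rw [← Subgroup.mem_map_iff_mem P.subtype_injective, Subgroup.map_subtype_commutator]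
      exact hMP m.2
    exact Abelianization.commutator_subset_ker μ h1
  obtain ⟨n, hn⟩ := isCharacter_eq_sum hres
  let μi : IrrCharacter P := ⟨fun x => (μ x : ℂ), isIrrCharacter_linear μ⟩
  have hnμ : n μi ≠ 0 := by
    intro h0
    refine hμ ?_
    rw [show (fun x => (μ x : ℂ)) = (μi : P → ℂ) from rfl, hn, classInner_sum_left]
    refine Finset.sum_eq_zero fun γ _ => ?_
    rw [classInner_smul_left, classInner_irrCharacter]
    by_cases hγ : γ = μi
    · rw [hγ, h0, Nat.cast_zero, zero_mul]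
    · rw [if_neg hγ, mul_zero]
  choose c hc using fun γ : IrrCharacter P => classInner_natCast
    (isCharacter_comp (isCharacter_of_isIrr γ.2) (Subgroup.inclusion hMP'))
    (isCharacter_of_isIrr (isIrrCharacter_one (G := M)))
  have hone : classInner (fun m : M => (χ : G → ℂ) m) (fun _ => 1) ≠ 0 := by
    have hexp : (fun m : M => (χ : G → ℂ) m) =
        ∑ γ : IrrCharacter P, (n γ : ℂ) • ((γ : P → ℂ) ∘ Subgroup.inclusion hMP') := by
      funext m
      have := congrFun hn ⟨(m : G), hMP' m.2⟩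
      rw [this]
      simp only [Finset.sum_apply, Pi.smul_apply, Function.comp]
      rfl
    rw [hexp, classInner_sum_left]
    simp only [classInner_smul_left, hc]
    intro h
    have h' : ∑ γ : IrrCharacter P, n γ * c γ = 0 := by exact_mod_cast h
    have h1 := (Finset.sum_eq_zero_iff.1 h') μi (Finset.mem_univ _)
    have hcμ : c μi = 1 := by
      have h2 := hc μi
      rw [show ((μi : P → ℂ) ∘ Subgroup.inclusion hMP') = fun _ => 1 from funext fun m => by
          show (μ ⟨(m : G), hMP' m.2⟩ : ℂ) = 1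
          rw [hμ1]; rfl,
        classInner_irr_self isIrrCharacter_one] at h2
      exact_mod_cast h2.symm
    rw [hcμ, mul_one] at h1
    exact hnμ h1
  obtain ⟨g, hg⟩ := conjugate_of_constituents M χ.2 isIrrCharacter_one (isIrr_homFun l) hone hl
  ext m
  exact (congrFun hg m).symm

/-- A `p`-subgroup of `U` normalising a Sylow subgroup of `U` lies in it. -/
theorem le_of_normalizes {p : ℕ} [Fact p.Prime] {U : Subgroup G} (Q : Sylow p U) {R : Subgroup G}
    (hR : IsPGroup p R) (hRU : R ≤ U)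
    (hn : R ≤ Subgroup.normalizer (((Q : Subgroup U).map U.subtype : Subgroup G) : Set G)) :
    R ≤ (Q : Subgroup U).map U.subtype := by
  set Qg := (Q : Subgroup U).map U.subtype with hQg
  have hsup : IsPGroup p (Qg ⊔ R : Subgroup G) :=
    (Q.isPGroup'.map U.subtype).to_sup_of_normal_left' hR hn
  have hle : (Q : Subgroup U) ≤ (Qg ⊔ R).subgroupOf U := fun x hx =>
    Subgroup.mem_subgroupOf.2 (Subgroup.mem_sup_left (Subgroup.mem_map_of_mem _ hx))
  have heq : (Qg ⊔ R).subgroupOf U = (Q : Subgroup U) :=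
    Q.is_maximal' (hsup.comap_of_injective U.subtype U.subtype_injective) hle
  intro x hx
  have : (⟨x, hRU hx⟩ : U) ∈ (Q : Subgroup U) := by
    rw [← heq, Subgroup.mem_subgroupOf]
    exact Subgroup.mem_sup_right hx
  exact ⟨_, this, rfl⟩

end Cfsg.Agent.Lib.CharRealPrime
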